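import Mathlib
import Cfsg.Agent.Lib.Helper23.Brauer
import Cfsg.Agent.S0178
import Cfsg.Agent.Lib.Helper2.Linear
import Cfsg.Agent.Lib.Helper6.CharCentral
import Cfsg.Agent.Lib.Helper13.Clifford1

set_option autoImplicit false
set_option linter.style.haveILetI false
set_option linter.unusedSectionVars false

/-! Artin's induction theorem. -/

namespace Cfsg.Agent.Lib.Helper13.Artin

open Cfsg.Agent.Lib.Helper2 Cfsg.Agent.Lib.Helper13 Cfsg.Agent.Lib.Lead Cfsg.Agent.Lib.Helper24
open Cfsg.Agent.Lib.Helper23.IndTools Cfsg.Agent.Lib.Helper23.Brauer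
open scoped ComplexConjugate

universe u

open Classical in
/-- `|C|` on the generators of `C`, zero elsewhere -/
noncomputable def gen (C : Type u) [Group C] : C → ℂ :=
  fun x => if Subgroup.zpowers x = ⊤ then (Nat.card C : ℂ) else 0

theorem zpowers_coe_eq_top_iff {G : Type u} [Group G] (C : Subgroup G) (x : C) :
    Subgroup.zpowers x = ⊤ ↔ Subgroup.zpowers (x : G) = C := by
  have h : (Subgroup.zpowers x).map C.subtype = Subgroup.zpowers (x : G) := by
    rw [MonoidHom.map_zpowers]; rfl
  rw [← h]
  constructor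
  · intro h1
    rw [h1, ← MonoidHom.range_eq_map, Subgroup.range_subtype]
  · intro h1
    apply Subgroup.map_injective C.subtype_injective
    rw [h1, ← MonoidHom.range_eq_map, Subgroup.range_subtype]

open Classical in
theorem extend_gen {G : Type u} [Group G] (C : Subgroup G) (w : G) :
    Cfsg.extendByZero C (gen C) w = if C = Subgroup.zpowers w then (Nat.card C : ℂ) else 0 := by
  by_cases hw : w ∈ C
  · rw [extendByZero_mem _ _ hw, gen]
    have := zpowers_coe_eq_top_iff C ⟨w, hw⟩
    simp only at this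
    by_cases h : C = Subgroup.zpowers w
    · rw [if_pos (this.mpr h.symm), if_pos h]
    · rw [if_neg (fun hh => h (this.mp hh).symm), if_neg h]
  · rw [extendByZero_not_mem _ _ hw, if_neg]
    rintro rfl
    exact hw (Subgroup.mem_zpowers w)

theorem sum_indFun_gen {G : Type u} [Group G] [Fintype G] [Fintype (Subgroup G)] :
    ∑ C : Subgroup G, Cfsg.indFun C (gen C) = fun _ => (Nat.card G : ℂ) := by
  classical
  funext g
  rw [Finset.sum_apply]
  simp only [Cfsg.indFun, extend_gen, Finset.mul_sum]
  rw [Finset.sum_comm]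
  have h : ∀ y : G, ∑ C : Subgroup G, (Nat.card C : ℂ)⁻¹ *
      (if C = Subgroup.zpowers (y⁻¹ * g * y) then (Nat.card C : ℂ) else 0) = 1 := by
    intro y
    rw [Finset.sum_eq_single (Subgroup.zpowers (y⁻¹ * g * y))]
    · rw [if_pos rfl]
      exact inv_mul_cancel₀ (card_subgroup_ne_zero _)
    · intro C _ hC
      rw [if_neg hC, mul_zero]
    · intro h; exact absurd (Finset.mem_univ _) h
  rw [Finset.sum_congr rfl fun y _ => h y]
  simp [Nat.card_eq_fintype_card]

theorem gen_top {G : Type u} [Group G] [Fintype G] :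
    Cfsg.indFun (⊤ : Subgroup G) (gen (⊤ : Subgroup G)) = gen G := by
  classical
  have hcl : Cfsg.IsClassFunction G (gen G) := by
    intro g h
    simp only [gen]
    have : Subgroup.zpowers (h * g * h⁻¹) = ⊤ ↔ Subgroup.zpowers g = ⊤ := by
      have h1 : (Subgroup.zpowers g).map (MulAut.conj h).toMonoidHom =
          Subgroup.zpowers (h * g * h⁻¹) := by
        rw [MonoidHom.map_zpowers]; rfl
      rw [← h1]
      constructor
      · intro h2
        apply Subgroup.map_injective (f := (MulAut.conj h).toMonoidHom) (MulAut.conj h).injective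
        rw [h2]
        exact (Subgroup.map_top_of_surjective _ (MulAut.conj h).surjective).symm
      · intro h2
        rw [h2]
        exact Subgroup.map_top_of_surjective _ (MulAut.conj h).surjective
    simp only [this]
  rw [← indFun_top hcl]
  congr 1
  funext x
  simp only [gen]
  rw [Subgroup.card_top]
  have := zpowers_coe_eq_top_iff (⊤ : Subgroup G) x
  simp only [this]

theorem genChar_gen : ∀ (n : ℕ) (C : Type u) [Group C] [Fintype C], Nat.card C = n →
    Cfsg.IsGeneralizedCharacter C (gen C) := by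
  intro n
  induction n using Nat.strong_induction_on with
  | _ n ih =>
  intro C _ _ hn
  classical
  letI : Fintype (Subgroup C) := Fintype.ofFinite _
  have h := sum_indFun_gen (G := C)
  rw [← Finset.add_sum_erase _ _ (Finset.mem_univ (⊤ : Subgroup C)), gen_top] at h
  have h1 : gen C = (fun _ => (Nat.card C : ℂ)) -
      ∑ B ∈ Finset.univ.erase (⊤ : Subgroup C), Cfsg.indFun B (gen B) := by
    rw [← h]; abel
  rw [h1]
  apply genChar_sub
  · have : (fun _ : C => (Nat.card C : ℂ)) = (Nat.card C : ℂ) • (fun _ : C => (1 : ℂ)) := by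
      funext x; simp
    rw [this]
    exact genChar_nsmul _ (genChar_of_char (IsIrrCharacter.isCharacter isIrrCharacter_one))
  · apply genChar_sum
    intro B hB
    apply genChar_indFun
    have hlt : Nat.card B < n := by
      rw [← hn]
      by_contra hc
      push Not at hc
      exact (Finset.ne_of_mem_erase hB)
        (Subgroup.eq_top_of_card_eq B (le_antisymm (Subgroup.card_le_card_group B) hc))
    exact ih _ hlt B rfl

/-- irreducible characters of commutative groups are linear -/
theorem exists_hom_of_comm {A : Type u} [Group A] [Finite A] (hA : ∀ a b : A, a * b = b * a)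
    {ψ : A → ℂ} (hψ : Cfsg.IsIrrCharacter A ψ) : ∃ lam : A →* ℂˣ, ψ = fun a => (lam a : ℂ) := by
  have hψ' := hψ
  obtain ⟨n, ρ, hirr, rfl⟩ := hψ
  haveI := hirr
  have h1 := Cfsg.Agent.S0178.result ρ ⊤ (fun a _ b _ => hA a b)
  rw [Subgroup.index_top] at h1
  have h0 : ρ.character 1 ≠ 0 := Cfsg.Agent.Lib.Helper6.irr_one_ne_zero hψ'
  apply exists_hom_of_degree_one (IsIrrCharacter.isCharacter hψ')
  rw [Representation.char_one] at h0 ⊢
  have : Module.finrank ℂ (Fin n → ℂ) ≠ 0 := by
    intro h; apply h0; rw [h]; simp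
  have h2 : Module.finrank ℂ (Fin n → ℂ) = 1 := by omega
  rw [h2]; simp

/-- span of the functions induced from linear characters of cyclic subgroups -/
noncomputable def cycSpan (G : Type u) [Group G] [Fintype G] : Submodule ℤ (G → ℂ) :=
  Submodule.span ℤ {f | ∃ (A : Subgroup G) (lam : A →* ℂˣ),
    IsCyclic A ∧ f = Cfsg.indFun A (fun a => (lam a : ℂ))}

theorem indFun_genChar_mem {G : Type u} [Group G] [Fintype G] (A : Subgroup G) (hA : IsCyclic A)
    {f : A → ℂ} (hf : Cfsg.IsGeneralizedCharacter A f) : Cfsg.indFun A f ∈ cycSpan G := by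
  classical
  haveI := finite_irr (G := A)
  letI : Fintype (Cfsg.IrrCharacter A) := Fintype.ofFinite _
  obtain ⟨n, rfl⟩ := genChar_exists_eq_sum hf
  rw [indFun_sum]
  apply Submodule.sum_mem
  intro ψ _
  rw [indFun_smul, Int.cast_smul_eq_zsmul]
  apply Submodule.smul_mem
  obtain ⟨lam, hlam⟩ := exists_hom_of_comm
    (fun a b => (IsCyclic.commGroup (α := A)).mul_comm a b) ψ.2
  rw [hlam]
  exact Submodule.subset_span ⟨A, lam, hA, rfl⟩

theorem gen_eq_zero {C : Type u} [Group C] (h : ¬ IsCyclic C) : gen C = 0 := by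
  classical
  funext x
  simp only [gen, Pi.zero_apply]
  rw [if_neg]
  intro hx
  apply h
  exact ⟨x, fun y => by
    have : y ∈ (⊤ : Subgroup C) := Subgroup.mem_top y
    rwa [← hx] at this⟩

theorem artin_mem {G : Type u} [Group G] [Fintype G] {χ : G → ℂ} (hχ : Cfsg.IsCharacter G χ) :
    (Nat.card G : ℂ) • χ ∈ cycSpan G := by
  classical
  letI : Fintype (Subgroup G) := Fintype.ofFinite _
  have h : (Nat.card G : ℂ) • χ = ∑ C : Subgroup G, Cfsg.indFun C (gen C * fun n : C => χ n) := by
    rw [Finset.sum_congr rfl fun C _ => indFun_mul_restrict C (gen C)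
      (IsCharacter.isClassFunction hχ), ← Finset.sum_mul, sum_indFun_gen]
    funext g
    simp
  rw [h]
  apply Submodule.sum_mem
  intro C _
  by_cases hC : IsCyclic C
  · apply indFun_genChar_mem C hC
    exact genChar_mul (genChar_gen _ C rfl) (genChar_of_char (IsCharacter.restrict C hχ))
  · rw [gen_eq_zero hC, zero_mul, indFun_zero]
    exact Submodule.zero_mem _

theorem list_smul {G : Type u} [Group G] [Fintype G] (c : ℤ)
    (l : List ((A : Subgroup G) × ((A →* ℂˣ) × ℤ))) :
    c • (l.map fun t => (t.2.2 : ℂ) • Cfsg.indFun t.1 (fun a => (t.2.1 a : ℂ))).sum =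
      ((l.map (fun t => (⟨t.1, t.2.1, c * t.2.2⟩ : (A : Subgroup G) × ((A →* ℂˣ) × ℤ)))).map
        fun t => (t.2.2 : ℂ) • Cfsg.indFun t.1 (fun a => (t.2.1 a : ℂ))).sum := by
  induction l with
  | nil => simp
  | cons t l ih =>
    simp only [List.map_cons, List.sum_cons, smul_add, ih]
    congr 1
    rw [← Int.cast_smul_eq_zsmul ℂ, smul_smul]
    push_cast
    rfl

theorem exists_list_of_mem {G : Type u} [Group G] [Fintype G] {f : G → ℂ} (hf : f ∈ cycSpan G) :
    ∃ l : List ((A : Subgroup G) × ((A →* ℂˣ) × ℤ)),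
      (∀ t ∈ l, IsCyclic t.1) ∧
      f = (l.map fun t => (t.2.2 : ℂ) • Cfsg.indFun t.1 (fun a => (t.2.1 a : ℂ))).sum := by
  unfold cycSpan at hf
  induction hf using Submodule.span_induction with
  | mem f hf =>
    obtain ⟨E, ψ, hel, rfl⟩ := hf
    refine ⟨[⟨E, ψ, 1⟩], ?_, ?_⟩
    · intro t ht
      rw [List.mem_singleton] at ht
      subst ht
      exact hel
    · simp
  | zero => exact ⟨[], by simp, by simp⟩
  | add a b _ _ ha hb =>
    obtain ⟨l₁, h₁, rfl⟩ := ha
    obtain ⟨l₂, h₂, rfl⟩ := hb
    refine ⟨l₁ ++ l₂, ?_, by simp⟩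
    intro t ht
    rcases List.mem_append.mp ht with h | h
    · exact h₁ t h
    · exact h₂ t h
  | smul c a _ ha =>
    obtain ⟨l, h, rfl⟩ := ha
    refine ⟨_, ?_, list_smul c l⟩
    intro t ht
    obtain ⟨s, hs, rfl⟩ := List.mem_map.mp ht
    exact h s hs

end Cfsg.Agent.Lib.Helper13.Artin
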