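import Mathlib
import Cfsg.Agent.Lib.Helper23.Brauer

set_option autoImplicit false
set_option linter.style.haveILetI false
set_option linter.unusedSectionVars false

/-! Local form of Brauer's induction theorem. -/

namespace Cfsg.Agent.Lib.Helper13.BrauerLocal

open Cfsg.Agent.Lib.Helper2 Cfsg.Agent.Lib.Helper13 Cfsg.Agent.Lib.Lead Cfsg.Agent.Lib.Helper24
open Cfsg.Agent.Lib.Helper23.IndTools Cfsg.Agent.Lib.Helper23.Monomial
open Cfsg.Agent.Lib.Helper23.Solomon Cfsg.Agent.Lib.Helper23.Brauer
open scoped ComplexConjugate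

universe u

/-- span of the characters induced from characters of `p`-elementary subgroups -/
noncomputable def elSpanP (p : ℕ) (G : Type u) [Group G] [Fintype G] : Submodule ℤ (G → ℂ) :=
  Submodule.span ℤ {f | ∃ (E : Subgroup G) (ψ : E → ℂ),
    Cfsg.IsElementary p E ∧ Cfsg.IsCharacter E ψ ∧ f = Cfsg.indFun E ψ}

variable {p : ℕ} {G : Type u} [Group G] [Fintype G]

theorem indFun_mem_elSpanP (T : Subgroup G) [Fintype T] {f : T → ℂ} (hf : f ∈ elSpanP p T) :
    Cfsg.indFun T f ∈ elSpanP p G := by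
  unfold elSpanP at hf
  induction hf using Submodule.span_induction with
  | mem f hf =>
    obtain ⟨E', ψ, hel, hψ, rfl⟩ := hf
    rw [indFun_indFun_map]
    apply Submodule.subset_span
    exact ⟨E'.map T.subtype, _,
      isElementary_of_equiv (E'.equivMapOfInjective T.subtype T.subtype_injective) hel,
      IsCharacter.comp_hom
        (E'.equivMapOfInjective T.subtype T.subtype_injective).symm.toMonoidHom hψ, rfl⟩
  | zero => rw [indFun_zero]; exact Submodule.zero_mem _
  | add a b _ _ ha hb => rw [indFun_add]; exact Submodule.add_mem _ ha hb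
  | smul c a _ ha =>
    rw [← Int.cast_smul_eq_zsmul ℂ, indFun_smul, Int.cast_smul_eq_zsmul]
    exact Submodule.smul_mem _ c ha

theorem QE_top_of_QE {T : Subgroup G} (h : QE p T) : QE p (⊤ : Subgroup T) := by
  obtain ⟨C, hCT, hN, hcyc, hcop, k, hk⟩ := h
  haveI : (C.subgroupOf T).Normal := (Subgroup.normal_subgroupOf_iff_le_normalizer hCT).2 hN
  refine ⟨C.subgroupOf T, le_top, ?_, ?_, ?_, k, ?_⟩
  · rw [Subgroup.normalizer_eq_top]
  · exact (Subgroup.subgroupOfEquivOfLe hCT).symm.isCyclic.mp hcyc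
  · rw [Nat.card_congr (Subgroup.subgroupOfEquivOfLe hCT).toEquiv]; exact hcop
  · rw [Subgroup.relIndex_top_right]; exact hk

theorem qe_aux (hp : p.Prime) : ∀ (n : ℕ) (G : Type u) [Group G] [Fintype G], Nat.card G = n →
    QE p (⊤ : Subgroup G) → ∀ χ : G → ℂ, Cfsg.IsCharacter G χ → χ ∈ elSpanP p G := by
  intro n
  induction n using Nat.strong_induction_on with
  | _ n ih =>
  intro G _ _ hn hQE χ hχ
  classical
  by_cases hel : Cfsg.IsElementary p G
  · rw [← indFun_top (IsCharacter.isClassFunction hχ)]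
    exact Submodule.subset_span ⟨⊤, _, isElementary_of_equiv Subgroup.topEquiv.symm hel,
      IsCharacter.restrict ⊤ hχ, rfl⟩
  · have h1 : (fun _ : G => (1 : ℂ)) ∈ propSpan G := one_mem_propSpan_of_QE hp hQE hel
    have key : ∀ f ∈ propSpan G, f * χ ∈ elSpanP p G := by
      intro f hf
      unfold propSpan at hf
      induction hf using Submodule.span_induction with
      | mem f hf =>
        obtain ⟨T, ψ, hT, hψ, rfl⟩ := hf
        rw [← indFun_mul_restrict T ψ (IsCharacter.isClassFunction hχ)]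
        apply indFun_mem_elSpanP
        have hlt : Nat.card T < n := by
          rw [← hn]
          by_contra hc
          push Not at hc
          exact hT (Subgroup.eq_top_of_card_eq T (le_antisymm (Subgroup.card_le_card_group T) hc))
        exact ih _ hlt T rfl (QE_top_of_QE (QE.of_le hp le_top hQE)) _
          (IsCharacter.mul hψ (IsCharacter.restrict T hχ))
      | zero => rw [zero_mul]; exact Submodule.zero_mem _
      | add a b _ _ ha hb => rw [add_mul]; exact Submodule.add_mem _ ha hb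
      | smul c a _ ha => rw [smul_mul_assoc]; exact Submodule.smul_mem _ c ha
    have := key _ h1
    have h2 : (fun _ : G => (1 : ℂ)) * χ = χ := by funext g; simp
    rwa [h2] at this

/-- **Brauer's induction theorem, local form.** -/
theorem brauer_local (hp : p.Prime) :
    ∃ m : ℤ, ¬ (p : ℤ) ∣ m ∧ (fun _ : G => (m : ℂ)) ∈ elSpanP p G := by
  classical
  obtain ⟨m, hm, hmem⟩ := solomon_local (G := G) p hp
  refine ⟨m, hm, ?_⟩
  obtain ⟨a, ha, h1⟩ := exists_coeff_complex _ hmem
  rw [h1]
  apply Submodule.sum_mem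
  intro H _
  rw [Int.cast_smul_eq_zsmul]
  by_cases h0 : a H = 0
  · rw [h0, zero_smul]; exact Submodule.zero_mem _
  · apply Submodule.smul_mem
    apply indFun_mem_elSpanP
    exact qe_aux hp _ H rfl (QE_top_of_QE (ha H h0)) _
      (IsIrrCharacter.isCharacter isIrrCharacter_one)

theorem list_smul (c : ℤ) (l : List ((E : Subgroup G) × ((E → ℂ) × ℤ))) :
    c • (l.map fun t => (t.2.2 : ℂ) • Cfsg.indFun t.1 t.2.1).sum =
      ((l.map (fun t => (⟨t.1, t.2.1, c * t.2.2⟩ : (E : Subgroup G) × ((E → ℂ) × ℤ)))).map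
        fun t => (t.2.2 : ℂ) • Cfsg.indFun t.1 t.2.1).sum := by
  induction l with
  | nil => simp
  | cons t l ih =>
    simp only [List.map_cons, List.sum_cons, smul_add, ih]
    congr 1
    rw [← Int.cast_smul_eq_zsmul ℂ, smul_smul]
    push_cast
    rfl

/-- list form of membership in `elSpanP` -/
theorem exists_list_of_mem {f : G → ℂ} (hf : f ∈ elSpanP p G) :
    ∃ l : List ((E : Subgroup G) × ((E → ℂ) × ℤ)),
      (∀ t ∈ l, Cfsg.IsElementary p t.1 ∧ Cfsg.IsCharacter t.1 t.2.1) ∧
      f = (l.map fun t => (t.2.2 : ℂ) • Cfsg.indFun t.1 t.2.1).sum := by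
  unfold elSpanP at hf
  induction hf using Submodule.span_induction with
  | mem f hf =>
    obtain ⟨E, ψ, hel, hψ, rfl⟩ := hf
    refine ⟨[⟨E, ψ, 1⟩], ?_, ?_⟩
    · intro t ht
      rw [List.mem_singleton] at ht
      subst ht
      exact ⟨hel, hψ⟩
    · simp
  | zero => exact ⟨[], by simp, by simp⟩
  | add a b _ _ ha hb =>
    obtain ⟨l₁, h₁, rfl⟩ := ha
    obtain ⟨l₂, h₂, rfl⟩ := hb
    refine ⟨l₁ ++ l₂, ?_, by simp⟩
    intro t ht
    rcases List.mem_append.mp ht with h | h
    · exact h₁ t h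
    · exact h₂ t h
  | smul c a _ ha =>
    obtain ⟨l, h, rfl⟩ := ha
    refine ⟨l.map (fun t => ⟨t.1, t.2.1, c * t.2.2⟩), ?_, ?_⟩
    · intro t ht
      obtain ⟨s, hs, rfl⟩ := List.mem_map.mp ht
      exact h s hs
    · exact list_smul c l

end Cfsg.Agent.Lib.Helper13.BrauerLocal
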