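import Mathlib
import Cfsg.Agent.Lib.Helper13.BrauerLocal
import Cfsg.Agent.Lib.Helper2.Clifford

set_option autoImplicit false
set_option linter.style.haveILetI false
set_option linter.unusedSectionVars false

/-! Dade's theorem (Isaacs 8.24). -/

namespace Cfsg.Agent.Lib.Helper13.Dade

open Cfsg.Agent.Lib.Helper2 Cfsg.Agent.Lib.Helper13 Cfsg.Agent.Lib.Lead Cfsg.Agent.Lib.Helper24
open Cfsg.Agent.Lib.Helper23.IndTools Cfsg.Agent.Lib.Helper23.Brauer
open Cfsg.Agent.Lib.Helper13.BrauerLocal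
open scoped ComplexConjugate

universe u

/-- weighted orbit counting -/
theorem dvd_sum_of_orbits {E X : Type*} [Group E] [MulAction E X] [Fintype X] (p : ℕ) (f : X → ℤ)
    (hf : ∀ (e : E) (x : X), f (e • x) = f x)
    (horb : ∀ x : X, ∃ j, Nat.card (MulAction.orbit E x) = p ^ j)
    (hfix : ∀ x : X, (∀ e : E, e • x = x) → (p : ℤ) ∣ f x) :
    (p : ℤ) ∣ ∑ x, f x := by
  classical
  letI : Fintype (Quotient (MulAction.orbitRel E X)) := Fintype.ofFinite _
  rw [← Finset.sum_fiberwise (s := Finset.univ)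
    (g := fun x => (Quotient.mk (MulAction.orbitRel E X) x))]
  apply Finset.dvd_sum
  intro ω _
  induction ω using Quotient.inductionOn with
  | _ x0 =>
  have h1 : ∀ x ∈ Finset.univ.filter
      (fun x => Quotient.mk (MulAction.orbitRel E X) x = Quotient.mk _ x0), f x = f x0 := by
    intro x hx
    have hx' := Quotient.exact (Finset.mem_filter.mp hx).2
    obtain ⟨e, rfl⟩ : x ∈ MulAction.orbit E x0 := hx'
    exact hf e x0
  rw [Finset.sum_congr rfl h1, Finset.sum_const, nsmul_eq_mul]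
  have h2 : (Finset.univ.filter
      (fun x => Quotient.mk (MulAction.orbitRel E X) x = Quotient.mk _ x0)).card =
      Nat.card (MulAction.orbit E x0) := by
    rw [Nat.card_eq_fintype_card, Fintype.card_subtype]
    congr 1
    ext x
    simp only [Finset.mem_filter, Finset.mem_univ, true_and]
    exact Quotient.eq (r := MulAction.orbitRel E X)
  obtain ⟨j, hj⟩ := horb x0
  rw [h2, hj]
  rcases Nat.eq_zero_or_pos j with rfl | hj0
  · apply Dvd.dvd.mul_left
    apply hfix
    intro e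
    rw [pow_zero, Nat.card_eq_one_iff_unique] at hj
    haveI := hj.1
    have := Subsingleton.elim (⟨e • x0, MulAction.mem_orbit x0 e⟩ : MulAction.orbit E x0)
      ⟨x0, MulAction.mem_orbit_self x0⟩
    exact congrArg Subtype.val this
  · apply Dvd.dvd.mul_right
    push_cast
    exact dvd_pow_self _ hj0.ne'

theorem classInner_conjFun_conjFun {E : Type u} [Group E] (D : Subgroup E) [D.Normal] [Fintype D]
    (e : E) (a b : D → ℂ) :
    Cfsg.classInner (conjFun D e a) (conjFun D e b) = Cfsg.classInner a b := by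
  simp only [Cfsg.classInner]
  congr 1
  rw [conjFun_eq_comp, conjFun_eq_comp]
  exact Fintype.sum_equiv (MulAut.conjNormal e⁻¹ : D ≃* D).toEquiv _ _ fun n => rfl

theorem exists_invariant {E : Type u} [Group E] [Fintype E] (D : Subgroup E) [D.Normal] [Fintype D]
    {p : ℕ} (hp : p.Prime) (hind : ∃ k, D.index = p ^ k) {a b : D → ℂ}
    (ha : Cfsg.IsCharacter D a) (hb : Cfsg.IsCharacter D b)
    (hainv : ∀ e, conjFun D e a = a) (hbinv : ∀ e, conjFun D e b = b)
    (n : ℤ) (hn : Cfsg.classInner a b = n) (hpn : ¬ (p : ℤ) ∣ n) :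
    ∃ φ, Cfsg.IsIrrCharacter D φ ∧ (∀ e, conjFun D e φ = φ) ∧
      ∃ m : ℕ, ¬ p ∣ m ∧ Cfsg.classInner b φ = m := by
  classical
  haveI := finite_irr (G := D)
  letI : Fintype (Cfsg.IrrCharacter D) := Fintype.ofFinite _
  letI : MulAction E (Cfsg.IrrCharacter D) :=
    { smul := fun e φ => ⟨conjFun D e φ.1, IsIrrCharacter.conjFun D φ.2 e⟩
      one_smul := fun φ => Subtype.ext (conjFun_one D φ.1)
      mul_smul := fun x y φ => Subtype.ext (conjFun_mul D x y φ.1) }
  have hsm : ∀ (e : E) (φ : Cfsg.IrrCharacter D), ((e • φ : Cfsg.IrrCharacter D) : D → ℂ) =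
    conjFun D e φ.1 := fun _ _ => rfl
  choose na hna using fun ψ : Cfsg.IrrCharacter D =>
    IsCharacter.classInner_nat ha (IsIrrCharacter.isCharacter ψ.2)
  choose nb hnb using fun ψ : Cfsg.IrrCharacter D =>
    IsCharacter.classInner_nat hb (IsIrrCharacter.isCharacter ψ.2)
  by_contra hcon
  push Not at hcon
  apply hpn
  have hsum : n = ∑ φ : Cfsg.IrrCharacter D, ((na φ : ℤ) * (nb φ : ℤ)) := by
    have h1 := classInner_eq_sum_irr (IsCharacter.isClassFunction ha)
      (IsCharacter.isClassFunction hb)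
    rw [hn] at h1
    simp only [hna, hnb, Complex.conj_natCast] at h1
    exact_mod_cast h1
  rw [hsum]
  apply dvd_sum_of_orbits (E := E) p
  · intro e φ
    have h1 : na (e • φ) = na φ := by
      have : (na (e • φ) : ℂ) = na φ := by
        rw [← hna, ← hna, hsm]
        conv_lhs => rw [← hainv e]
        exact classInner_conjFun_conjFun D e a φ.1
      exact_mod_cast this
    have h2 : nb (e • φ) = nb φ := by
      have : (nb (e • φ) : ℂ) = nb φ := by
        rw [← hnb, ← hnb, hsm]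
        conv_lhs => rw [← hbinv e]
        exact classInner_conjFun_conjFun D e b φ.1
      exact_mod_cast this
    rw [h1, h2]
  · intro φ
    obtain ⟨k, hk⟩ := hind
    have h1 : D ≤ MulAction.stabilizer E φ := by
      intro d hd
      rw [MulAction.mem_stabilizer_iff]
      apply Subtype.ext
      rw [hsm]
      exact conjFun_of_mem D (IsCharacter.isClassFunction (IsIrrCharacter.isCharacter φ.2)) hd
    have h2 := Subgroup.index_dvd_of_le h1
    rw [hk, MulAction.index_stabilizer, ← Nat.card_coe_set_eq] at h2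
    obtain ⟨j, _, hj⟩ := (Nat.dvd_prime_pow hp).1 h2
    exact ⟨j, hj⟩
  · intro φ hφ
    apply Dvd.dvd.mul_left
    have := hcon φ.1 φ.2 (fun e => by rw [← hsm, hφ e]) (nb φ)
    by_contra h
    exact this (fun h' => h (by exact_mod_cast h')) (hnb φ)

section main

variable {G : Type u} [Group G] [Fintype G] (N : Subgroup G) [hN : N.Normal] [Fintype N]

/-- the functional `f ↦ [f_N ϑ, ϑ]` -/
noncomputable def Phi (ϑ : N → ℂ) (f : G → ℂ) : ℂ :=
  (Nat.card N : ℂ)⁻¹ * ∑ n : N, f n * (ϑ n * conj (ϑ n))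

theorem Phi_add (ϑ : N → ℂ) (f g : G → ℂ) : Phi N ϑ (f + g) = Phi N ϑ f + Phi N ϑ g := by
  simp only [Phi, Pi.add_apply, add_mul, Finset.sum_add_distrib, mul_add]

theorem Phi_zsmul (ϑ : N → ℂ) (c : ℤ) (f : G → ℂ) : Phi N ϑ (c • f) = c * Phi N ϑ f := by
  simp only [Phi, Pi.smul_apply, zsmul_eq_mul, Finset.mul_sum]
  refine Finset.sum_congr rfl fun n _ => ?_
  ring

theorem Phi_zero (ϑ : N → ℂ) : Phi N ϑ (0 : G → ℂ) = 0 := by
  simp [Phi]

theorem Phi_const {ϑ : N → ℂ} (hϑ : Cfsg.IsIrrCharacter N ϑ) (m : ℂ) :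
    Phi N ϑ (fun _ => m) = m := by
  have h := classInner_irr hϑ hϑ
  rw [if_pos rfl] at h
  simp only [Cfsg.classInner] at h
  simp only [Phi]
  rw [← Finset.mul_sum, mul_left_comm, h, mul_one]

/-- restriction of `ϑ` to `N.subgroupOf E` -/
def resD (E : Subgroup G) (ϑ : N → ℂ) : N.subgroupOf E → ℂ :=
  fun d => ϑ ⟨((d : E) : G), d.2⟩

theorem index_identity (E : Subgroup G) :
    (E ⊔ N).index * (N.subgroupOf E).index = N.index := by
  have h1 := Subgroup.relIndex_mul_index (le_sup_right : N ≤ E ⊔ N)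
  rw [Subgroup.relIndex_sup_right] at h1
  rw [← h1, mul_comm]
  rfl

theorem Phi_indFun (E : Subgroup G) [Fintype (N.subgroupOf E)] (ψ : E → ℂ) {ϑ : N → ℂ}
    (hinv : ∀ (g : G) (n : N), ϑ ⟨g * n * g⁻¹, hN.conj_mem (n : G) n.2 g⟩ = ϑ n) :
    Phi N ϑ (Cfsg.indFun E ψ) = ((E ⊔ N).index : ℂ) *
      Cfsg.classInner ((fun d : N.subgroupOf E => ψ d) * resD N E ϑ) (resD N E ϑ) := by
  classical
  have h1 : ∀ y : G, ∑ n : N, Cfsg.extendByZero E ψ (y⁻¹ * n * y) * (ϑ n * conj (ϑ n)) =
      ∑ n : N, Cfsg.extendByZero E ψ n * (ϑ n * conj (ϑ n)) := by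
    intro y
    refine Fintype.sum_equiv (MulAut.conjNormal y⁻¹ : N ≃* N).toEquiv _ _ fun n => ?_
    have h2 : (((MulAut.conjNormal y⁻¹ : N ≃* N).toEquiv n : N) : G) = y⁻¹ * n * y := by simp
    have h3 : ϑ ((MulAut.conjNormal y⁻¹ : N ≃* N).toEquiv n) = ϑ n := by
      rw [← hinv y⁻¹ n]
      congr 1
    rw [h2, h3]
  have h2 : ∑ n : N, Cfsg.extendByZero E ψ n * (ϑ n * conj (ϑ n)) =
      ∑ d : N.subgroupOf E, ψ d * (resD N E ϑ d * conj (resD N E ϑ d)) := by
    symm
    apply Fintype.sum_of_injective (fun d : N.subgroupOf E => (⟨((d : E) : G), d.2⟩ : N))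
    · intro d d' h
      apply Subtype.ext
      apply Subtype.ext
      exact congrArg (fun x : N => (x : G)) h
    · intro n hn
      rw [extendByZero_not_mem, zero_mul]
      intro hE
      exact hn ⟨⟨⟨n, hE⟩, n.2⟩, rfl⟩
    · intro d
      rw [extendByZero_mem E ψ (d : E).2]
      rfl
  have hcard : (Nat.card G : ℂ) * (Nat.card (N.subgroupOf E) : ℂ) =
      ((E ⊔ N).index : ℂ) * ((Nat.card E : ℂ) * (Nat.card N : ℂ)) := by
    have e1 := index_identity N E
    have e2 := Subgroup.index_mul_card (N.subgroupOf E)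
    have e3 := Subgroup.index_mul_card N
    have : Nat.card G * Nat.card (N.subgroupOf E) = (E ⊔ N).index * (Nat.card E * Nat.card N) := by
      rw [← e3, ← e1, ← e2]; ring
    exact_mod_cast this
  simp only [Phi, Cfsg.indFun, Cfsg.classInner, Pi.mul_apply]
  have h3 : ∀ n : N, (Nat.card E : ℂ)⁻¹ * (∑ x : G, Cfsg.extendByZero E ψ (x⁻¹ * n * x)) *
      (ϑ n * conj (ϑ n)) = (Nat.card E : ℂ)⁻¹ *
        ∑ x : G, Cfsg.extendByZero E ψ (x⁻¹ * n * x) * (ϑ n * conj (ϑ n)) := by
    intro n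
    rw [mul_assoc, Finset.sum_mul]
  rw [Finset.sum_congr rfl fun n _ => h3 n, ← Finset.mul_sum, Finset.sum_comm,
    Finset.sum_congr rfl fun y _ => h1 y, Finset.sum_const, h2, Finset.card_univ,
    ← Nat.card_eq_fintype_card, nsmul_eq_mul]
  have hE : (Nat.card E : ℂ) ≠ 0 := card_subgroup_ne_zero _
  have hN' : (Nat.card N : ℂ) ≠ 0 := card_subgroup_ne_zero _
  have hD : (Nat.card (N.subgroupOf E) : ℂ) ≠ 0 := card_subgroup_ne_zero _
  have h4 : ∑ d : N.subgroupOf E, ψ d * resD N E ϑ d * conj (resD N E ϑ d) =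
      ∑ d : N.subgroupOf E, ψ d * (resD N E ϑ d * conj (resD N E ϑ d)) :=
    Finset.sum_congr rfl fun d _ => by ring
  rw [h4]
  field_simp
  linear_combination (∑ x : N.subgroupOf E, ψ x * resD N E ϑ x * conj (resD N E ϑ x)) * hcard

theorem resD_isCharacter (E : Subgroup G) {ϑ : N → ℂ} (hϑ : Cfsg.IsCharacter N ϑ) :
    Cfsg.IsCharacter (N.subgroupOf E) (resD N E ϑ) :=
  IsCharacter.comp_hom (E.subtype.subgroupComap N) hϑ

theorem dade {p : ℕ} (hp : p.Prime) (hind : ∃ k : ℕ, N.index = p ^ k) {ϑ : N → ℂ}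
    (hϑ : Cfsg.IsIrrCharacter N ϑ)
    (hinv : ∀ (g : G) (n : N), ϑ ⟨g * n * g⁻¹, hN.conj_mem (n : G) n.2 g⟩ = ϑ n) :
    ∃ (E : Subgroup G) (_ : Fintype (N.subgroupOf E)) (φ : N.subgroupOf E → ℂ),
      Cfsg.IsElementary p E ∧ E ⊔ N = ⊤ ∧
      Cfsg.IsIrrCharacter (N.subgroupOf E) φ ∧ (∀ e : E, conjFun (N.subgroupOf E) e φ = φ) ∧
      ∃ m : ℕ, ¬ p ∣ m ∧ Cfsg.classInner (resD N E ϑ) φ = m := by
  classical
  obtain ⟨m, hm, hmem⟩ := brauer_local (G := G) hp
  by_contra hcon
  apply hm
  have key : ∀ f ∈ elSpanP p G, ∃ z : ℤ, Phi N ϑ f = ((p * z : ℤ) : ℂ) := by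
    intro f hf
    unfold elSpanP at hf
    induction hf using Submodule.span_induction with
    | mem f hf =>
      obtain ⟨E, ψ, hel, hψ, rfl⟩ := hf
      rw [Phi_indFun N E ψ hinv]
      have ha : Cfsg.IsCharacter (N.subgroupOf E)
          ((fun d : N.subgroupOf E => ψ d) * resD N E ϑ) :=
        IsCharacter.mul (IsCharacter.restrict _ hψ)
          (resD_isCharacter N E (IsIrrCharacter.isCharacter hϑ))
      have hb := resD_isCharacter N E (IsIrrCharacter.isCharacter hϑ)
      obtain ⟨n, hn⟩ := IsCharacter.classInner_nat ha hb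
      rw [hn]
      obtain ⟨k, hk⟩ := hind
      have hid := index_identity N E
      by_cases htop : E ⊔ N = ⊤
      · have hpn : (p : ℤ) ∣ (n : ℤ) := by
          by_contra hpn
          have hbinv : ∀ e : E, conjFun (N.subgroupOf E) e (resD N E ϑ) = resD N E ϑ := by
            intro e
            funext d
            simp only [conjFun, resD]
            rw [← hinv (e : G)⁻¹ ⟨((d : E) : G), d.2⟩]
            congr 1
            apply Subtype.ext
            simp
          have hainv : ∀ e : E, conjFun (N.subgroupOf E) e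
              ((fun d : N.subgroupOf E => ψ d) * resD N E ϑ) =
              (fun d : N.subgroupOf E => ψ d) * resD N E ϑ := by
            intro e
            funext d
            have h1 := congrFun (hbinv e) d
            simp only [conjFun, Pi.mul_apply] at h1 ⊢
            rw [h1]
            congr 1
            have := IsCharacter.isClassFunction hψ (d : E) e⁻¹
            rw [inv_inv] at this
            exact this
          have hindD : ∃ k, (N.subgroupOf E).index = p ^ k := by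
            rw [htop, Subgroup.index_top, one_mul] at hid
            exact ⟨k, by rw [hid, hk]⟩
          obtain ⟨φ, h1, h2, h3⟩ := exists_invariant (N.subgroupOf E) hp hindD ha hb hainv hbinv n
            (by rw [hn]; simp) hpn
          exact hcon ⟨E, inferInstance, φ, hel, htop, h1, h2, h3⟩
        obtain ⟨z, hz⟩ := hpn
        refine ⟨z, ?_⟩
        rw [htop, Subgroup.index_top]
        have : (n : ℂ) = ((n : ℤ) : ℂ) := by simp
        rw [this, hz]
        simp
      · have h1 : (E ⊔ N).index ∣ p ^ k := by rw [← hk, ← hid]; exact dvd_mul_right _ _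
        obtain ⟨j, _, hj⟩ := (Nat.dvd_prime_pow hp).1 h1
        have hj0 : j ≠ 0 := by
          rintro rfl
          rw [pow_zero, Subgroup.index_eq_one] at hj
          exact htop hj
        obtain ⟨i, rfl⟩ := Nat.exists_eq_succ_of_ne_zero hj0
        refine ⟨p ^ i * n, ?_⟩
        rw [hj, Nat.succ_eq_add_one, pow_succ]
        push_cast
        ring
    | zero => exact ⟨0, by rw [Phi_zero]; simp⟩
    | add a b _ _ ha hb =>
      obtain ⟨x, hx⟩ := ha
      obtain ⟨y, hy⟩ := hb
      refine ⟨x + y, ?_⟩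
      rw [Phi_add, hx, hy]
      push_cast
      ring
    | smul c a _ ha =>
      obtain ⟨x, hx⟩ := ha
      refine ⟨c * x, ?_⟩
      rw [Phi_zsmul, hx]
      push_cast
      ring
  obtain ⟨z, hz⟩ := key _ hmem
  rw [Phi_const N hϑ] at hz
  exact ⟨z, by exact_mod_cast hz⟩

end main

end Cfsg.Agent.Lib.Helper13.Dade
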