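import Mathlib
import Cfsg.Agent.Lib.Helper13.Dade
import Cfsg.Agent.Lib.Helper13.Artin
import Cfsg.Agent.Lib.Helper13.SectionFn
import Cfsg.Agent.Lib.Helper13.CentralExt2
import Cfsg.Agent.Lib.Helper13.Clifford4

set_option autoImplicit false
set_option linter.style.haveILetI false
set_option linter.unusedSectionVars false

/-! Extension of invariant characters, `G/N` a `p`-group (Isaacs 8.26). -/

namespace Cfsg.Agent.Lib.Helper13.Dade2

open Cfsg.Agent.Lib.Helper2 Cfsg.Agent.Lib.Helper13 Cfsg.Agent.Lib.Lead Cfsg.Agent.Lib.Helper24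
open Cfsg.Agent.Lib.Helper23.IndTools Cfsg.Agent.Lib.Helper23.Brauer
open Cfsg.Agent.Lib.Helper13.BrauerLocal Cfsg.Agent.Lib.Helper13.Dade
open scoped ComplexConjugate commutatorElement IsMulCommutative

universe u

/-- a hom into a commutative group kills commutators -/
theorem hom_commutator_eq_one {G A : Type*} [Group G] [CommGroup A] (P : Subgroup G) (f : P →* A)
    {x : G} (hx : x ∈ (⁅P, P⁆ : Subgroup G)) (hxP : x ∈ P) : f ⟨x, hxP⟩ = 1 := by
  have h : (⁅P, P⁆ : Subgroup G) ≤ f.ker.map P.subtype := by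
    rw [Subgroup.commutator_le]
    intro a ha b hb
    refine ⟨⁅(⟨a, ha⟩ : P), ⟨b, hb⟩⁆, ?_, rfl⟩
    show f _ = 1
    rw [map_commutatorElement, commutatorElement_eq_one_iff_mul_comm, mul_comm]
  obtain ⟨y, hy, hyx⟩ := h hx
  have : y = ⟨x, hxP⟩ := Subtype.ext hyx
  rw [← this]
  exact hy

/-- extension of homs from a subgroup meeting the commutator subgroup trivially -/
theorem exists_hom_extension {E : Type*} [Group E] [Finite E] (D : Subgroup E)
    (hD : ∀ d ∈ D, d ∈ commutator E → d = 1) (lam : D →* ℂˣ) :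
    ∃ μ : E →* ℂˣ, ∀ d : D, μ d = lam d := by
  let f : D →* Abelianization E := Abelianization.of.comp D.subtype
  have hf : Function.Injective f := by
    rw [injective_iff_map_eq_one]
    intro d hd
    apply Subtype.ext
    apply hD d d.2
    have : (d : E) ∈ (Abelianization.of (G := E)).ker := hd
    rwa [Abelianization.ker_of] at this
  let e : D ≃* f.range := MonoidHom.ofInjective hf
  obtain ⟨μ, hμ⟩ := MonoidHom.domRestrict_surjective (M := ℂ) f.range (lam.comp e.symm.toMonoidHom)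
  refine ⟨μ.comp Abelianization.of, fun d => ?_⟩
  have h1 := DFunLike.congr_fun hμ (e d)
  simp only [MonoidHom.comp_apply] at h1 ⊢
  have h2 : e.symm.toMonoidHom (e d) = d := e.symm_apply_apply d
  rw [h2] at h1
  rw [← h1]
  rfl

theorem commutator_central_mul {E : Type*} [Group E] {z z' : E} (hz : z ∈ Subgroup.center E)
    (hz' : z' ∈ Subgroup.center E) (y y' : E) : ⁅z * y, z' * y'⁆ = ⁅y, y'⁆ := by
  have h1 := Subgroup.mem_center_iff.1 hz
  have h2 := Subgroup.mem_center_iff.1 hz'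
  simp only [commutatorElement_def]
  have e1 : z * y * (z' * y') * (z * y)⁻¹ * (z' * y')⁻¹ =
      (z * (y * (z' * (y' * y⁻¹)))) * z⁻¹ * y'⁻¹ * z'⁻¹ := by group
  rw [e1, ← h1, mul_inv_cancel_right]
  have e2 : y * (z' * (y' * y⁻¹)) * y'⁻¹ * z'⁻¹ = y * (z' * (y' * y⁻¹ * y'⁻¹)) * z'⁻¹ := by group
  rw [e2, ← h2]
  group

section main

variable {G : Type u} [Group G] [Fintype G] (N : Subgroup G) [hN : N.Normal] [Fintype N]

theorem sum_indFun_weight (E : Subgroup G) [Fintype (N.subgroupOf E)] (ψ : E → ℂ) {w : N → ℂ}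
    (hinv : ∀ (g : G) (n : N), w ⟨g * n * g⁻¹, hN.conj_mem (n : G) n.2 g⟩ = w n) :
    (Nat.card N : ℂ)⁻¹ * ∑ n : N, Cfsg.indFun E ψ n * w n = ((E ⊔ N).index : ℂ) *
      ((Nat.card (N.subgroupOf E) : ℂ)⁻¹ * ∑ d : N.subgroupOf E, ψ d * resD N E w d) := by
  classical
  have h1 : ∀ y : G, ∑ n : N, Cfsg.extendByZero E ψ (y⁻¹ * n * y) * w n =
      ∑ n : N, Cfsg.extendByZero E ψ n * w n := by
    intro y
    refine Fintype.sum_equiv (MulAut.conjNormal y⁻¹ : N ≃* N).toEquiv _ _ fun n => ?_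
    have h2 : (((MulAut.conjNormal y⁻¹ : N ≃* N).toEquiv n : N) : G) = y⁻¹ * n * y := by simp
    have h3 : w ((MulAut.conjNormal y⁻¹ : N ≃* N).toEquiv n) = w n := by
      rw [← hinv y⁻¹ n]
      congr 1
    rw [h2, h3]
  have h2 : ∑ n : N, Cfsg.extendByZero E ψ n * w n =
      ∑ d : N.subgroupOf E, ψ d * resD N E w d := by
    symm
    apply Fintype.sum_of_injective (fun d : N.subgroupOf E => (⟨((d : E) : G), d.2⟩ : N))
    · intro d d' h
      apply Subtype.ext
      apply Subtype.ext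
      exact congrArg (fun x : N => (x : G)) h
    · intro n hn
      rw [extendByZero_not_mem, zero_mul]
      intro hE
      exact hn ⟨⟨⟨n, hE⟩, n.2⟩, rfl⟩
    · intro d
      rw [extendByZero_mem E ψ (d : E).2]
      rfl
  have hcard : (Nat.card G : ℂ) * (Nat.card (N.subgroupOf E) : ℂ) =
      ((E ⊔ N).index : ℂ) * ((Nat.card E : ℂ) * (Nat.card N : ℂ)) := by
    have e1 := index_identity N E
    have e2 := Subgroup.index_mul_card (N.subgroupOf E)
    have e3 := Subgroup.index_mul_card N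
    have : Nat.card G * Nat.card (N.subgroupOf E) = (E ⊔ N).index * (Nat.card E * Nat.card N) := by
      rw [← e3, ← e1, ← e2]; ring
    exact_mod_cast this
  simp only [Cfsg.indFun]
  have h3 : ∀ n : N, (Nat.card E : ℂ)⁻¹ * (∑ x : G, Cfsg.extendByZero E ψ (x⁻¹ * n * x)) *
      w n = (Nat.card E : ℂ)⁻¹ * ∑ x : G, Cfsg.extendByZero E ψ (x⁻¹ * n * x) * w n := by
    intro n
    rw [mul_assoc, Finset.sum_mul]
  rw [Finset.sum_congr rfl fun n _ => h3 n, ← Finset.mul_sum, Finset.sum_comm,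
    Finset.sum_congr rfl fun y _ => h1 y, Finset.sum_const, h2, Finset.card_univ,
    ← Nat.card_eq_fintype_card, nsmul_eq_mul]
  have hE : (Nat.card E : ℂ) ≠ 0 := card_subgroup_ne_zero _
  have hN' : (Nat.card N : ℂ) ≠ 0 := card_subgroup_ne_zero _
  have hD : (Nat.card (N.subgroupOf E) : ℂ) ≠ 0 := card_subgroup_ne_zero _
  field_simp
  linear_combination (∑ x : N.subgroupOf E, ψ x * resD N E w x) * hcard

theorem commutator_sylow_inf (p : ℕ) [Fact p.Prime] (P : Sylow p G)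
    (hcent : ∀ x ∈ (P : Subgroup G) ⊓ N, ∀ y ∈ (P : Subgroup G), x * y = y * x)
    (hlin : ∀ lam : ↥((P : Subgroup G) ⊓ N) → ℂ, Cfsg.IsCharacter ↥((P : Subgroup G) ⊓ N) lam →
      lam 1 = 1 → ∃ μ : ↥(P : Subgroup G) → ℂ, Cfsg.IsCharacter ↥(P : Subgroup G) μ ∧ μ 1 = 1 ∧
        ∀ x : ↥((P : Subgroup G) ⊓ N), μ ⟨(x : G), x.2.1⟩ = lam x) :
    ∀ x ∈ (⁅(P : Subgroup G), (P : Subgroup G)⁆ : Subgroup G), x ∈ N → x = 1 := by
  intro x hx hxN
  have hxP : x ∈ (P : Subgroup G) := Subgroup.commutator_le_self _ hx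
  by_contra hne
  haveI : IsMulCommutative ↥((P : Subgroup G) ⊓ N) :=
    isMulCommutative_iff.mpr (fun a b => Subtype.ext (hcent a a.2 b b.2.1))
  obtain ⟨lam, hlam⟩ := CommGroup.exists_apply_ne_one_of_hasEnoughRootsOfUnity
    ↥((P : Subgroup G) ⊓ N) ℂ (a := ⟨x, hxP, hxN⟩) (fun h => hne (by simpa using congrArg Subtype.val h))
  obtain ⟨μ, hμ, hμ1, hres⟩ := hlin (fun a => (lam a : ℂ))
    (IsIrrCharacter.isCharacter (isIrrCharacter_of_hom lam)) (by simp)
  obtain ⟨μ', rfl⟩ := exists_hom_of_degree_one hμ hμ1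
  have h1 := hres ⟨x, hxP, hxN⟩
  simp only at h1
  rw [hom_commutator_eq_one _ μ' hx hxP] at h1
  apply hlam
  apply Units.ext
  rw [← h1]

omit [Fintype N] in
theorem commutator_elementary_inf {p : ℕ} [hp : Fact p.Prime] (P : Sylow p G)
    (hP : ∀ x ∈ (⁅(P : Subgroup G), (P : Subgroup G)⁆ : Subgroup G), x ∈ N → x = 1)
    (E : Subgroup G) (hel : Cfsg.IsElementary p E) :
    ∀ x ∈ (⁅E, E⁆ : Subgroup G), x ∈ N → x = 1 := by
  obtain ⟨Z, P₀, hZ, hP₀, hprod⟩ := SectionFn.exists_central_prod_of_isElementary hp.out hel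
  have hQ : IsPGroup p (P₀.map E.subtype) := hP₀.map _
  obtain ⟨Q', hQ'⟩ := hQ.exists_le_sylow
  obtain ⟨g, hg⟩ := MulAction.exists_smul_eq G P Q'
  have h1 : (⁅E, E⁆ : Subgroup G) ≤ ⁅P₀.map E.subtype, P₀.map E.subtype⁆ := by
    rw [Subgroup.commutator_le]
    intro a ha b hb
    obtain ⟨z, hz, y, hy, hzy⟩ := hprod ⟨a, ha⟩
    obtain ⟨z', hz', y', hy', hzy'⟩ := hprod ⟨b, hb⟩
    have h2 : ⁅(⟨a, ha⟩ : E), ⟨b, hb⟩⁆ = ⁅y, y'⁆ := by
      rw [hzy, hzy']
      exact commutator_central_mul (hZ hz) (hZ hz') y y'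
    have h3 : ⁅a, b⁆ = ⁅(y : G), (y' : G)⁆ := congrArg Subtype.val h2
    rw [h3]
    exact Subgroup.commutator_mem_commutator ⟨y, hy, rfl⟩ ⟨y', hy', rfl⟩
  have h2 : (⁅E, E⁆ : Subgroup G) ≤
      (⁅(P : Subgroup G), (P : Subgroup G)⁆ : Subgroup G).map (MulAut.conj g).toMonoidHom := by
    rw [Subgroup.map_commutator]
    refine h1.trans (Subgroup.commutator_mono ?_ ?_) <;>
    · refine hQ'.trans ?_
      rw [← hg, Sylow.coe_subgroup_smul]
      exact le_of_eq rfl
  intro x hx hxN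
  obtain ⟨y, hy, rfl⟩ := h2 hx
  have hyN : y ∈ N := by
    have := hN.conj_mem _ hxN g⁻¹
    simpa [mul_assoc] using this
  rw [hP y hy hyN, map_one]

theorem extends_of_commutator {p : ℕ} [hp : Fact p.Prime] (hind : ∃ k : ℕ, N.index = p ^ k)
    (P : Sylow p G)
    (hP : ∀ x ∈ (⁅(P : Subgroup G), (P : Subgroup G)⁆ : Subgroup G), x ∈ N → x = 1)
    {ϑ : N → ℂ} (hϑ : Cfsg.IsIrrCharacter N ϑ)
    (hinv : ∀ (g : G) (n : N), ϑ ⟨g * n * g⁻¹, hN.conj_mem (n : G) n.2 g⟩ = ϑ n) :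
    ∃ χ : G → ℂ, Cfsg.IsIrrCharacter G χ ∧ ∀ n : N, χ n = ϑ n := by
  classical
  obtain ⟨E, _, φ, hel, htop, hirr, hfix, m, hm, hinner⟩ := dade N hp.out hind hϑ hinv
  have hE := commutator_elementary_inf N P hP E hel
  have hDcomm : ∀ a b : N.subgroupOf E, a * b = b * a := by
    intro a b
    have h1 : ⁅((a : E) : G), ((b : E) : G)⁆ = 1 := by
      apply hE
      · exact Subgroup.commutator_mem_commutator (a : E).2 (b : E).2
      · exact N.mul_mem (N.mul_mem (N.mul_mem a.2 b.2) (N.inv_mem a.2)) (N.inv_mem b.2)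
    rw [commutatorElement_eq_one_iff_mul_comm] at h1
    apply Subtype.ext
    apply Subtype.ext
    exact h1
  obtain ⟨lam, hlam⟩ := Artin.exists_hom_of_comm hDcomm hirr
  obtain ⟨μ, hμ⟩ := exists_hom_extension (N.subgroupOf E) (by
    intro d hd hdc
    apply Subtype.ext
    apply hE
    · rw [← Subgroup.map_subtype_commutator]
      exact ⟨d, hdc, rfl⟩
    · exact hd) lam
  set ψ : E → ℂ := fun e => (μ e : ℂ) with hψdef
  have hψ : Cfsg.IsCharacter E ψ := IsIrrCharacter.isCharacter (isIrrCharacter_of_hom μ)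
  have hΨ : Cfsg.IsCharacter G (Cfsg.indFun E ψ) := IsCharacter.indFun E hψ
  have hval : Cfsg.classInner (fun n : N => Cfsg.indFun E ψ n) ϑ = m := by
    have h1 := sum_indFun_weight N E ψ (w := fun n => conj (ϑ n))
      (fun g n => by simp only [hinv g n])
    simp only [Cfsg.classInner]
    rw [h1, htop, Subgroup.index_top, Nat.cast_one, one_mul]
    have h2 := classInner_conj_symm (resD N E ϑ) φ
    rw [hinner, Complex.conj_natCast] at h2
    rw [h2]
    simp only [Cfsg.classInner]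
    congr 1
    refine Finset.sum_congr rfl fun d _ => ?_
    rw [hlam, hψdef]
    simp only [hμ]
    rfl
  haveI := finite_irr (G := G)
  letI : Fintype (Cfsg.IrrCharacter G) := Fintype.ofFinite _
  obtain ⟨a, ha⟩ := IsCharacter.exists_eq_sum hΨ
  choose e he using fun χ : Cfsg.IrrCharacter G =>
    IsCharacter.classInner_nat (IsCharacter.restrict N (IsIrrCharacter.isCharacter χ.2))
      (IsIrrCharacter.isCharacter hϑ)
  have hsum : m = ∑ χ : Cfsg.IrrCharacter G, a χ * e χ := by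
    have h1 : (fun n : N => Cfsg.indFun E ψ n) =
        ∑ χ : Cfsg.IrrCharacter G, (a χ : ℂ) • (fun n : N => (χ : G → ℂ) n) := by
      funext n
      rw [ha]
      simp
    rw [h1, classInner_sum_left] at hval
    simp only [classInner_smul_left, he] at hval
    exact_mod_cast hval.symm
  obtain ⟨χ, hχ⟩ : ∃ χ : Cfsg.IrrCharacter G, ¬ p ∣ e χ := by
    by_contra hcon
    push Not at hcon
    apply hm
    rw [hsum]
    exact Finset.dvd_sum fun χ _ => Dvd.dvd.mul_left (hcon χ) _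
  have hinv' : ∀ g : G, conjFun N g ϑ = ϑ := fun g => (stmtInv_iff N ϑ g).1 (hinv g)
  have hne : Cfsg.classInner (fun n : N => (χ : G → ℂ) n) ϑ ≠ 0 := by
    rw [he]
    intro h0
    apply hχ
    have : e χ = 0 := by exact_mod_cast h0
    rw [this]; exact dvd_zero p
  have hres := restrict_eq_smul_of_invariant N hϑ hinv' χ.2 hne
  obtain ⟨e', he1, he2⟩ := ratio_dvd_index_of_invariant N χ.2 hϑ hinv' hne
  have hϑ1 : ϑ 1 ≠ 0 := Cfsg.Agent.Lib.Helper6.irr_one_ne_zero hϑ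
  have hee : e' = e χ := by
    have h1 := congrFun hres 1
    simp only [Pi.smul_apply, smul_eq_mul, he] at h1
    have h2 : (χ : G → ℂ) ((1 : N) : G) = (χ : G → ℂ) 1 := rfl
    rw [h2, he1] at h1
    exact_mod_cast mul_right_cancel₀ hϑ1 h1
  obtain ⟨k, hk⟩ := hind
  rw [hk, hee] at he2
  obtain ⟨j, _, hj⟩ := (Nat.dvd_prime_pow hp.out).1 he2
  have hj0 : j = 0 := by
    by_contra h
    apply hχ
    rw [hj]
    exact dvd_pow_self p h
  rw [hj0, pow_zero] at hj
  refine ⟨χ, χ.2, fun n => ?_⟩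
  have h1 := congrFun hres n
  simp only [Pi.smul_apply, smul_eq_mul, he, hj] at h1
  rw [h1]; simp

end main

end Cfsg.Agent.Lib.Helper13.Dade2
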