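import Mathlib
import Cfsg.Agent.Lib.Helper13.CyclicExt2
import Cfsg.Agent.Lib.Helper13.Clifford1
import Cfsg.Agent.Lib.Helper24.Constituent
import Cfsg.Agent.Lib.Helper24.FongReynolds2
import Cfsg.Agent.Lib.Lead.GlaubN
import Cfsg.Agent.Lib.Lead.GenChar

set_option autoImplicit false
set_option linter.unusedSectionVars false
set_option linter.style.haveILetI false

/-! Fully ramified characters: no self-centralizing cyclic subgroup in the quotient. -/

namespace Cfsg.Agent.Lib.Helper13.FullRam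

open Cfsg Cfsg.Agent.Lib.Helper2 Cfsg.Agent.Lib.Helper6 Cfsg.Agent.Lib.Helper24
open Cfsg.Agent.Lib.Lead.Glaub
open scoped ComplexConjugate Classical

attribute [local instance] irrFintype

theorem eq_smul_of_degree {G : Type*} [Group G] [Fintype G] {Θ : G → ℂ} (hΘ : IsCharacter G Θ)
    (ψ : IrrCharacter G) (m : ℕ) (h : classInner Θ ψ = m)
    (hdeg : charDegree Θ = m * charDegree (ψ : G → ℂ)) : Θ = (m : ℂ) • (ψ : G → ℂ) := by
  obtain ⟨n, hn⟩ := IsCharacter.exists_eq_sum hΘ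
  have h1 : classInner Θ ψ = n ψ := by
    conv_lhs => rw [hn]
    exact classInner_sum_irr_left _ ψ
  have h2 : n ψ = m := by
    rw [h] at h1
    exact_mod_cast h1.symm
  have h3 := degree_eq_sum n hn
  rw [hdeg, ← Finset.add_sum_erase _ _ (Finset.mem_univ ψ), h2] at h3
  have h5 : ∑ x ∈ Finset.univ.erase ψ, n x * charDegree (x : G → ℂ) = 0 := by omega
  have h8 : ∀ φ, φ ≠ ψ → n φ = 0 := by
    intro φ hφ
    have := (Finset.sum_eq_zero_iff.mp h5) φ (Finset.mem_erase.mpr ⟨hφ, Finset.mem_univ _⟩)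
    rcases Nat.mul_eq_zero.mp this with h9 | h9
    · exact h9
    · exact absurd h9 (charDegree_pos φ.2).ne'
  rw [hn, Finset.sum_eq_single ψ]
  · rw [h2]
  · intro φ _ hφ
    simp [h8 φ hφ]
  · intro h; exact absurd (Finset.mem_univ _) h

section basics

variable {H : Type*} [Group H] [Fintype H] (Z : Subgroup H) [hZn : Z.Normal]
  (χ : IrrCharacter H) (θ : IrrCharacter Z) (e : ℕ)

theorem ind_eq (he : e ^ 2 = Z.index) (hχ : ∀ z : Z, (χ : H → ℂ) z = (e : ℂ) * (θ : Z → ℂ) z) :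
    indFun Z (θ : Z → ℂ) = (e : ℂ) • (χ : H → ℂ) := by
  apply eq_smul_of_degree (IsCharacter.indFun Z (IsIrrCharacter.isCharacter θ.2))
  · rw [frobenius_reciprocity Z _ _ (irr_isClassFunction χ.2)]
    have : (fun z : Z => (χ : H → ℂ) z) = (e : ℂ) • (θ : Z → ℂ) := funext hχ
    rw [this, classInner_smul_right, classInner_irr θ.2 θ.2, if_pos rfl, mul_one,
      Complex.conj_natCast]
  · rw [charDegree_indFun Z (IsIrrCharacter.isCharacter θ.2), ← he]
    have h1 : (charDegree (χ : H → ℂ) : ℂ) = ((e * charDegree (θ : Z → ℂ) : ℕ) : ℂ) := by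
      rw [charDegree_cast (IsIrrCharacter.isCharacter χ.2)]
      push_cast
      rw [charDegree_cast (IsIrrCharacter.isCharacter θ.2)]
      exact hχ 1
    have h2 : charDegree (χ : H → ℂ) = e * charDegree (θ : Z → ℂ) := by exact_mod_cast h1
    rw [h2]
    ring

theorem e_ne_zero (he : e ^ 2 = Z.index) : (e : ℂ) ≠ 0 := by
  intro h
  have h0 : e = 0 := by exact_mod_cast h
  rw [h0] at he
  exact Subgroup.index_ne_zero_of_finite (H := Z) (by rw [← he]; simp)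

theorem vanish (he : e ^ 2 = Z.index) (hχ : ∀ z : Z, (χ : H → ℂ) z = (e : ℂ) * (θ : Z → ℂ) z)
    {y : H} (hy : y ∉ Z) : (χ : H → ℂ) y = 0 := by
  have h1 := congrFun (ind_eq Z χ θ e he hχ) y
  rw [indFun_of_not_mem_normal Z _ hy, Pi.smul_apply, smul_eq_mul] at h1
  exact (mul_eq_zero.mp h1.symm).resolve_left (e_ne_zero Z e he)

theorem uniq (he : e ^ 2 = Z.index) (hχ : ∀ z : Z, (χ : H → ℂ) z = (e : ℂ) * (θ : Z → ℂ) z)
    (ξ : IrrCharacter H) (h : classInner (fun z : Z => (ξ : H → ℂ) z) (θ : Z → ℂ) ≠ 0) :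
    ξ = χ := by
  by_contra hne
  apply h
  rw [← classInner_conj_symm, ← frobenius_reciprocity Z _ _ (irr_isClassFunction ξ.2),
    ind_eq Z χ θ e he hχ, classInner_smul_left, classInner_irr χ.2 ξ.2, if_neg, mul_zero, map_zero]
  intro h2
  exact hne (Subtype.ext h2.symm)

theorem indFun_vanish (he : e ^ 2 = Z.index)
    (hχ : ∀ z : Z, (χ : H → ℂ) z = (e : ℂ) * (θ : Z → ℂ) z)
    (Γ : Subgroup H) (hZΓ : Z ≤ Γ) {ψ : Γ → ℂ} (hψ : IsIrrCharacter Γ ψ)
    (hres : ∀ z : Z, ψ (Subgroup.inclusion hZΓ z) = (θ : Z → ℂ) z)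
    {y : H} (hy : y ∉ Z) : indFun Γ ψ y = 0 := by
  have hch := IsCharacter.indFun Γ (IsIrrCharacter.isCharacter hψ)
  rw [classFunction_eq_sum (IsCharacter.isClassFunction hch), Finset.sum_apply]
  refine Finset.sum_eq_zero fun ξ _ => ?_
  by_cases h0 : classInner (indFun Γ ψ) (ξ : H → ℂ) = 0
  · simp [h0]
  · have h1 : ξ = χ := by
      apply uniq Z χ θ e he hχ
      exact (constituent_trans (Subgroup.inclusion hZΓ) (φ := fun g : Γ => (ξ : H → ℂ) g)
        (IsCharacter.restrict Γ (IsIrrCharacter.isCharacter ξ.2)) θ).mpr ⟨⟨ψ, hψ⟩, by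
          rw [frobenius_reciprocity Γ ψ _ (irr_isClassFunction ξ.2)] at h0
          rw [← classInner_conj_symm]
          exact (map_ne_zero _).mpr h0, by
          have : (ψ ∘ Subgroup.inclusion hZΓ) = (θ : Z → ℂ) := funext hres
          show classInner (ψ ∘ Subgroup.inclusion hZΓ) (θ : Z → ℂ) ≠ 0
          rw [this, classInner_irr θ.2 θ.2, if_pos rfl]
          exact one_ne_zero⟩
    rw [h1, Pi.smul_apply, vanish Z χ θ e he hχ hy, smul_zero]

end basics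

theorem exists_ne_zero_on_coset {Γ A : Type*} [Group Γ] [Group A] [Fintype Γ] [Finite A]
    (K : Subgroup Γ) [K.Normal] (π : Γ →* A)
    (hker : ∀ x, π x = 1 ↔ x ∈ K) (hsurj : Function.Surjective π) (hA : ∀ a b : A, a * b = b * a)
    {φ : Γ → ℂ} (hφ : IsIrrCharacter Γ φ) (hθ : IsIrrCharacter K (fun k : K => φ k)) (a₀ : A) :
    ∃ y, π y = a₀ ∧ φ y ≠ 0 := by
  by_contra hcon
  push Not at hcon
  haveI := finite_hom hA
  haveI := Fintype.ofFinite (A →* ℂˣ)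
  have hF : ∑ f : A →* ℂˣ, ((f a₀⁻¹ : ℂˣ) : ℂ) • (fun γ => ((f (π γ) : ℂˣ) : ℂ) * φ γ) = 0 := by
    funext y
    rw [Finset.sum_apply]
    simp only [Pi.smul_apply, smul_eq_mul, Pi.zero_apply]
    have : ∀ f : A →* ℂˣ, ((f a₀⁻¹ : ℂˣ) : ℂ) * (((f (π y) : ℂˣ) : ℂ) * φ y) =
        ((f (a₀⁻¹ * π y) : ℂˣ) : ℂ) * φ y := by
      intro f
      rw [map_mul, Units.val_mul, mul_assoc]
    simp_rw [this]
    rw [← Finset.sum_mul, sum_hom_apply hA]
    by_cases h : π y = a₀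
    · rw [hcon y h, mul_zero]
    · rw [if_neg, zero_mul]
      intro h'
      exact h (inv_mul_eq_one.mp h').symm
  have h1 : classInner (∑ f : A →* ℂˣ, ((f a₀⁻¹ : ℂˣ) : ℂ) •
      (fun γ => ((f (π γ) : ℂˣ) : ℂ) * φ γ)) φ = classInner 0 φ := by rw [hF]
  rw [classInner_sum_left, Finset.sum_eq_single (1 : A →* ℂˣ), classInner_zero_left] at h1
  · rw [classInner_smul_left] at h1
    have : (fun γ => (((1 : A →* ℂˣ) (π γ) : ℂˣ) : ℂ) * φ γ) = φ := by
      funext γ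
      simp
    rw [this, classInner_irr hφ hφ, if_pos rfl] at h1
    simp at h1
  · intro f _ hf
    rw [classInner_smul_left, classInner_irr (gal_irr K π hker hφ hθ f) hφ, if_neg, mul_zero]
    intro h
    apply hf
    have h' : (fun γ => ((f (π γ) : ℂˣ) : ℂ) * φ γ) =
        (fun γ => (((1 : A →* ℂˣ) (π γ) : ℂˣ) : ℂ) * φ γ) := by
      rw [h]
      funext γ
      simp
    have h2 := (gal_bij K hφ hθ).injOn (hom_mem K (f.comp π) (fun k hk => by
      rw [MonoidHom.comp_apply, (hker k).mpr hk, map_one])) (hom_mem K ((1 : A →* ℂˣ).comp π)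
      (fun k hk => by rw [MonoidHom.comp_apply, (hker k).mpr hk, map_one])) h'
    ext a
    obtain ⟨γ, rfl⟩ := hsurj a
    have h3 := congrFun h2 γ
    simp only [MonoidHom.comp_apply] at h3
    exact h3
  · intro h
    exact absurd (Finset.mem_univ _) h

theorem main {H : Type*} [Group H] [Fintype H] (Z : Subgroup H) [hZn : Z.Normal]
    (χ : IrrCharacter H) (θ : IrrCharacter Z) (e : ℕ) (he : e ^ 2 = Z.index)
    (hχ : ∀ z : Z, (χ : H → ℂ) z = (e : ℂ) * (θ : Z → ℂ) z) (hZ : Z ≠ ⊤)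
    (C : Subgroup (H ⧸ Z)) (hC : IsCyclic C) : Subgroup.centralizer (C : Set (H ⧸ Z)) ≠ C := by
  intro hcent
  obtain ⟨⟨cbar, hcbar⟩, hgen⟩ := hC.exists_generator
  obtain ⟨c, rfl⟩ := QuotientGroup.mk_surjective cbar
  have hpow : ∀ x ∈ C, ∃ n : ℤ, x = (c : H ⧸ Z) ^ n := by
    intro x hx
    obtain ⟨n, hn⟩ := Subgroup.mem_zpowers_iff.mp (hgen ⟨x, hx⟩)
    exact ⟨n, by
      have := congrArg Subtype.val hn
      simpa using this.symm⟩
  have hcZ : c ∉ Z := by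
    intro hc
    apply hZ
    have h2 : ((c : H ⧸ Z)) = 1 := (QuotientGroup.eq_one_iff c).mpr hc
    have h1 : ∀ x ∈ C, x = 1 := by
      intro x hx
      obtain ⟨n, hn⟩ := hpow x hx
      rw [hn, h2, one_zpow]
    rw [eq_top_iff]
    intro h _
    have h3 : (h : H ⧸ Z) ∈ Subgroup.centralizer (C : Set (H ⧸ Z)) := by
      rw [Subgroup.mem_centralizer_iff]
      intro x hx
      rw [h1 x hx, one_mul, mul_one]
    rw [hcent] at h3
    exact (QuotientGroup.eq_one_iff h).mp (h1 _ h3)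
  obtain ⟨Γ, hΓ⟩ : ∃ Γ : Subgroup H, Γ = C.comap (QuotientGroup.mk' Z) := ⟨_, rfl⟩
  have hmemΓ : ∀ x : H, x ∈ Γ ↔ (x : H ⧸ Z) ∈ C := by
    intro x
    rw [hΓ]
    rfl
  have hZΓ : Z ≤ Γ := fun z hz => by
    rw [hmemΓ, (QuotientGroup.eq_one_iff z).mpr hz]
    exact C.one_mem
  let π : Γ →* C :=
    { toFun := fun y => ⟨((y : H) : H ⧸ Z), (hmemΓ y).mp y.2⟩
      map_one' := rfl
      map_mul' := fun _ _ => rfl }
  have hsurj : Function.Surjective π := by
    rintro ⟨x, hx⟩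
    obtain ⟨h, rfl⟩ := QuotientGroup.mk_surjective x
    exact ⟨⟨h, (hmemΓ h).mpr hx⟩, rfl⟩
  have hker : ∀ x : Γ, π x = 1 ↔ x ∈ Z.subgroupOf Γ := by
    intro x
    constructor
    · intro h
      have h1 : (((x : Γ) : H) : H ⧸ Z) = 1 := congrArg Subtype.val h
      exact (QuotientGroup.eq_one_iff ((x : Γ) : H)).mp h1
    · intro h
      have h1 : (((x : Γ) : H) : H ⧸ Z) = 1 := (QuotientGroup.eq_one_iff ((x : Γ) : H)).mpr h
      exact Subtype.ext h1
  have hA : ∀ a b : C, a * b = b * a := by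
    intro a b
    obtain ⟨n, hn⟩ := hpow a a.2
    obtain ⟨m, hm⟩ := hpow b b.2
    apply Subtype.ext
    show (a : H ⧸ Z) * b = b * a
    rw [hn, hm, ← zpow_add, ← zpow_add, add_comm]
  have he0 := e_ne_zero Z e he
  have hθK : IsIrrCharacter (Z.subgroupOf Γ)
      (fun k : Z.subgroupOf Γ => (θ : Z → ℂ) ⟨((k : Γ) : H), k.2⟩) :=
    Cfsg.Agent.Lib.Helper24.IsIrrCharacter.inflate (Subgroup.subgroupOfEquivOfLe hZΓ).toMonoidHom
      (Subgroup.subgroupOfEquivOfLe hZΓ).surjective θ.2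
  have hinv : ∀ g : Γ, conjFun (Z.subgroupOf Γ) g
      (fun k : Z.subgroupOf Γ => (θ : Z → ℂ) ⟨((k : Γ) : H), k.2⟩) =
      (fun k : Z.subgroupOf Γ => (θ : Z → ℂ) ⟨((k : Γ) : H), k.2⟩) := by
    intro g
    funext k
    rw [conjFun_apply]
    apply mul_left_cancel₀ he0
    rw [← hχ, ← hχ]
    have := irr_isClassFunction χ.2 ((k : Γ) : H) (g : H)⁻¹
    simpa using this
  let g0 : Γ := ⟨c, (hmemΓ c).mpr hcbar⟩
  have hcyc : IsCyclic (Γ ⧸ Z.subgroupOf Γ) := by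
    refine ⟨⟨(QuotientGroup.mk g0 : Γ ⧸ Z.subgroupOf Γ), fun x => ?_⟩⟩
    obtain ⟨y, rfl⟩ := QuotientGroup.mk_surjective x
    obtain ⟨n, hn⟩ := hpow _ ((hmemΓ y).mp y.2)
    refine Subgroup.mem_zpowers_iff.mpr ⟨n, ?_⟩
    rw [← QuotientGroup.mk_zpow, QuotientGroup.eq]
    show (((g0 ^ n)⁻¹ * y : Γ) : H) ∈ Z
    rw [← QuotientGroup.eq_one_iff]
    have : ((((g0 ^ n)⁻¹ * y : Γ) : H) : H ⧸ Z) = ((c : H ⧸ Z) ^ n)⁻¹ * ((y : H) : H ⧸ Z) := by
      simp [g0]
    rw [this, hn, inv_mul_cancel]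
  obtain ⟨φ, hφ, hφK⟩ := exists_extension_of_cyclic_quotient (Z.subgroupOf Γ) hcyc hθK hinv
  have hθ'' : IsIrrCharacter (Z.subgroupOf Γ) (fun k : Z.subgroupOf Γ => φ k) := by
    have : (fun k : Z.subgroupOf Γ => φ k) =
        (fun k : Z.subgroupOf Γ => (θ : Z → ℂ) ⟨((k : Γ) : H), k.2⟩) := funext hφK
    rw [this]
    exact hθK
  obtain ⟨y, hy, hyne⟩ := exists_ne_zero_on_coset (Z.subgroupOf Γ) π hker hsurj hA hφ hθ'' (π g0)
  have hyZ : (y : H) ∉ Z := by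
    intro h
    have h1 : π y = 1 := (hker y).mpr h
    rw [hy] at h1
    exact hcZ ((QuotientGroup.eq_one_iff c).mp (congrArg Subtype.val h1))
  haveI := finite_hom hA
  haveI := Fintype.ofFinite (C →* ℂˣ)
  have hβ : (Nat.card C : ℂ) • (fun γ : Γ => if π γ = π g0 then φ γ else 0) =
      ∑ f : C →* ℂˣ, ((f (π g0)⁻¹ : ℂˣ) : ℂ) • (fun γ => ((f (π γ) : ℂˣ) : ℂ) * φ γ) := by
    funext γ
    rw [Finset.sum_apply]
    simp only [Pi.smul_apply, smul_eq_mul]
    have : ∀ f : C →* ℂˣ, ((f (π g0)⁻¹ : ℂˣ) : ℂ) * (((f (π γ) : ℂˣ) : ℂ) * φ γ) =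
        ((f ((π g0)⁻¹ * π γ) : ℂˣ) : ℂ) * φ γ := by
      intro f
      rw [map_mul, Units.val_mul, mul_assoc]
    simp_rw [this]
    rw [← Finset.sum_mul, sum_hom_apply hA]
    by_cases h : π γ = π g0
    · rw [if_pos h, if_pos (by rw [h, inv_mul_cancel])]
    · rw [if_neg h, if_neg, zero_mul, mul_zero]
      intro h'
      exact h (inv_mul_eq_one.mp h').symm
  have hres : ∀ (f : C →* ℂˣ) (z : Z), ((f (π (Subgroup.inclusion hZΓ z)) : ℂˣ) : ℂ) *
      φ (Subgroup.inclusion hZΓ z) = (θ : Z → ℂ) z := by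
    intro f z
    have h1 : Subgroup.inclusion hZΓ z ∈ Z.subgroupOf Γ := z.2
    rw [(hker _).mpr h1, map_one, Units.val_one, one_mul]
    exact hφK ⟨_, h1⟩
  have hC0 : (Nat.card C : ℂ) ≠ 0 := by exact_mod_cast (Nat.card_pos (α := C)).ne'
  have hind0 : indFun Γ (fun γ : Γ => if π γ = π g0 then φ γ else 0) y = 0 := by
    have h1 : indFun Γ ((Nat.card C : ℂ) • (fun γ : Γ => if π γ = π g0 then φ γ else 0)) y = 0 := by
      rw [hβ, Cfsg.Agent.Lib.Helper13.indFun_sum, Finset.sum_apply]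
      refine Finset.sum_eq_zero fun f _ => ?_
      rw [Cfsg.Agent.Lib.Lead.indFun_smul, Pi.smul_apply, indFun_vanish Z χ θ e he hχ Γ hZΓ
        (gal_irr (Z.subgroupOf Γ) π hker hφ hθ'' f) (hres f) hyZ, smul_zero]
    rw [Cfsg.Agent.Lib.Lead.indFun_smul, Pi.smul_apply, smul_eq_mul] at h1
    exact (mul_eq_zero.mp h1).resolve_left hC0
  have hterm : ∀ x : H, extendByZero Γ (fun γ : Γ => if π γ = π g0 then φ γ else 0)
      (x⁻¹ * y * x) = if x ∈ Γ then φ y else 0 := by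
    intro x
    by_cases hx : x ∈ Γ
    · rw [if_pos hx]
      have h1 : x⁻¹ * y * x = (((⟨x, hx⟩ : Γ)⁻¹ * y * ⟨x, hx⟩ : Γ) : H) := rfl
      rw [h1, extendByZero_coe]
      have hπ' : π ((⟨x, hx⟩ : Γ)⁻¹ * y * ⟨x, hx⟩) = π g0 := by
        rw [map_mul, map_mul, map_inv, hA _ (π y), mul_assoc, inv_mul_cancel, mul_one, hy]
      rw [if_pos hπ']
      have := irr_isClassFunction hφ y (⟨x, hx⟩ : Γ)⁻¹
      simpa using this
    · rw [if_neg hx]
      by_cases hm : x⁻¹ * y * x ∈ Γ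
      · have h1 : x⁻¹ * y * x = ((⟨_, hm⟩ : Γ) : H) := rfl
        rw [h1, extendByZero_coe, if_neg]
        intro hh
        apply hx
        rw [hmemΓ, ← hcent, Subgroup.mem_centralizer_iff]
        have e1 : ((x⁻¹ * y * x : H) : H ⧸ Z) = (c : H ⧸ Z) := congrArg Subtype.val hh
        have e2 : ((y : H) : H ⧸ Z) = (c : H ⧸ Z) := congrArg Subtype.val hy
        have e3 : (c : H ⧸ Z) * (x : H ⧸ Z) = (x : H ⧸ Z) * (c : H ⧸ Z) := by
          calc (c : H ⧸ Z) * (x : H ⧸ Z) = ((y : H) : H ⧸ Z) * (x : H ⧸ Z) := by rw [e2]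
            _ = (x : H ⧸ Z) * ((x⁻¹ * y * x : H) : H ⧸ Z) := by
              rw [← QuotientGroup.mk_mul, ← QuotientGroup.mk_mul]
              congr 1
              group
            _ = (x : H ⧸ Z) * (c : H ⧸ Z) := by rw [e1]
        intro w hw
        obtain ⟨n, rfl⟩ := hpow w hw
        exact (Commute.zpow_left (show Commute (c : H ⧸ Z) (x : H ⧸ Z) from e3) n).eq
      · exact extendByZero_not_mem Γ _ hm
  have hind1 : indFun Γ (fun γ : Γ => if π γ = π g0 then φ γ else 0) y = φ y := by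
    unfold indFun
    rw [Finset.sum_congr rfl (fun x _ => hterm x), ← Finset.sum_filter, Finset.sum_const,
      nsmul_eq_mul, ← Fintype.card_subtype, ← Nat.card_eq_fintype_card]
    have hΓ0 : (Nat.card Γ : ℂ) ≠ 0 := by exact_mod_cast (Nat.card_pos (α := Γ)).ne'
    exact inv_mul_cancel_left₀ hΓ0 _
  exact hyne (hind1.symm.trans hind0)

end Cfsg.Agent.Lib.Helper13.FullRam
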