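import Mathlib
import Cfsg.Agent.Lib.Helper13.Clifford4
import Cfsg.Agent.Lib.Helper13.Ito
import Cfsg.Agent.S0175

set_option autoImplicit false
set_option linter.style.haveILetI false
set_option linter.unusedSectionVars false

/-! Counting linear characters against characters induced from an inertia group. -/

namespace Cfsg.Agent.Lib.Helper13.LinCount

open Cfsg.Agent.Lib.Helper2 Cfsg.Agent.Lib.Helper13 Cfsg.Agent.Lib.Lead
open scoped ComplexConjugate commutatorElement

theorem card_le_mul_of_fibres {A B : Type*} [Finite A] [Finite B] (F : A → B) (m : ℕ)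
    (h : ∀ b, Nat.card {a // F a = b} ≤ m) : Nat.card A ≤ m * Nat.card B := by
  classical
  cases nonempty_fintype B
  rw [Nat.card_congr (Equiv.sigmaFiberEquiv F).symm, Nat.card_sigma]
  calc ∑ b, Nat.card {a // F a = b} ≤ ∑ _b : B, m := Finset.sum_le_sum fun b _ => h b
    _ = m * Nat.card B := by
      rw [Finset.sum_const, Finset.card_univ, Nat.card_eq_fintype_card, smul_eq_mul, mul_comm]

variable {G : Type*} [Group G] [Fintype G]

/-- an irreducible character of a subgroup has at most `index` extensions -/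
theorem card_extensions_le (I : Subgroup G) [Fintype I] {θ : I → ℂ}
    (hθ : Cfsg.IsIrrCharacter I θ) :
    Nat.card {χ : Cfsg.IrrCharacter G // (fun x : I => (χ : G → ℂ) x) = θ} ≤ I.index := by
  classical
  haveI := finite_irr (G := G)
  letI : Fintype (Cfsg.IrrCharacter G) := Fintype.ofFinite _
  have hΨ : Cfsg.IsCharacter G (Cfsg.indFun I θ) :=
    IsCharacter.indFun I (IsIrrCharacter.isCharacter hθ)
  choose n hn using fun ψ : Cfsg.IrrCharacter G =>
    IsCharacter.classInner_nat hΨ (IsIrrCharacter.isCharacter ψ.2)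
  choose e he using fun ψ : Cfsg.IrrCharacter G =>
    IsCharacter.apply_one (IsIrrCharacter.isCharacter ψ.2)
  obtain ⟨d, hd⟩ := IsCharacter.apply_one (IsIrrCharacter.isCharacter hθ)
  have hd0 : d ≠ 0 := by
    rintro rfl
    exact Cfsg.Agent.Lib.Helper6.irr_one_ne_zero hθ (by simpa using hd)
  have h1 := congrFun (classFunction_eq_sum (IsCharacter.isClassFunction hΨ)) 1
  rw [Cfsg.Agent.S0175.indFun_one, Finset.sum_apply] at h1
  simp only [Pi.smul_apply, smul_eq_mul, hn, he, hd] at h1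
  have hidx : (Nat.card I : ℂ)⁻¹ * ((Nat.card G : ℂ) * (d : ℂ)) = ((I.index * d : ℕ) : ℂ) := by
    have hI : (Nat.card I : ℂ) ≠ 0 := card_subgroup_ne_zero _
    rw [← Subgroup.index_mul_card I]
    push_cast
    field_simp
  rw [hidx] at h1
  have h2 : I.index * d = ∑ ψ : Cfsg.IrrCharacter G, n ψ * e ψ := by exact_mod_cast h1
  have h3 : ∀ χ : Cfsg.IrrCharacter G, (fun x : I => (χ : G → ℂ) x) = θ → n χ * e χ = d := by
    intro χ hχ
    have e1 : n χ = 1 := by
      have : (n χ : ℂ) = 1 := by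
        rw [← hn, frobenius_reciprocity I θ _
          (IsCharacter.isClassFunction (IsIrrCharacter.isCharacter χ.2)), hχ, classInner_irr hθ hθ,
          if_pos rfl]
      exact_mod_cast this
    have e2 : e χ = d := by
      have : (e χ : ℂ) = d := by
        rw [← he, ← hd, ← hχ]; rfl
      exact_mod_cast this
    rw [e1, e2, one_mul]
  have h4 : Nat.card {χ : Cfsg.IrrCharacter G // (fun x : I => (χ : G → ℂ) x) = θ} * d ≤
      I.index * d := by
    rw [h2, Nat.card_eq_fintype_card, Fintype.card_subtype, ← smul_eq_mul, ← Finset.sum_const]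
    calc ∑ _χ ∈ Finset.univ.filter
          (fun χ : Cfsg.IrrCharacter G => (fun x : I => (χ : G → ℂ) x) = θ), d
        = ∑ χ ∈ Finset.univ.filter
          (fun χ : Cfsg.IrrCharacter G => (fun x : I => (χ : G → ℂ) x) = θ), n χ * e χ :=
          Finset.sum_congr rfl fun χ hχ => (h3 χ (Finset.mem_filter.mp hχ).2).symm
      _ ≤ ∑ ψ : Cfsg.IrrCharacter G, n ψ * e ψ :=
          Finset.sum_le_sum_of_subset (Finset.filter_subset _ _)
  exact Nat.le_of_mul_le_mul_right h4 (Nat.pos_of_ne_zero hd0)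

theorem isIrr_of_linear {H : Type*} [Group H] {a : H → ℂ} (ha : Cfsg.IsCharacter H a)
    (h1 : a 1 = 1) : Cfsg.IsIrrCharacter H a := by
  obtain ⟨f, rfl⟩ := exists_hom_of_degree_one ha h1
  exact isIrrCharacter_of_hom f

theorem restrict_eq_of_mul_eq (N : Subgroup G) [hN : N.Normal] [Fintype N] {φ : N → ℂ}
    (hφ : Cfsg.IsIrrCharacter N φ) (I : Subgroup G) [Fintype I]
    (hI : ∀ g, g ∈ I ↔ conjFun N g φ = φ) (hNI : N ≤ I)
    {ψ : I → ℂ} (hψ : Cfsg.IsIrrCharacter I ψ) (hext : ∀ n : N, ψ ⟨n, hNI n.2⟩ = φ n)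
    {lam lam' : G → ℂ} (hl : Cfsg.IsCharacter G lam) (hl1 : lam 1 = 1)
    (hlN : ∀ n ∈ N, lam n = 1) (hl' : Cfsg.IsCharacter G lam') (hl1' : lam' 1 = 1)
    (hlN' : ∀ n ∈ N, lam' n = 1)
    (h : Cfsg.indFun I ψ * lam = Cfsg.indFun I ψ * lam') :
    (fun x : I => lam x) = fun x : I => lam' x := by
  classical
  haveI := finite_irr (G := I)
  letI : Fintype (Cfsg.IrrCharacter I) := Fintype.ofFinite _
  obtain ⟨c1, c2, -⟩ := clifford_main N hφ I hI
  have key : ∀ {l : G → ℂ}, Cfsg.IsCharacter G l → l 1 = 1 → (∀ n ∈ N, l n = 1) →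
      Cfsg.IsIrrCharacter I ((fun x : I => l x) * ψ) ∧
      Cfsg.classInner (Cfsg.indFun (N.subgroupOf I) (toSubgroupOf N I φ))
        ((fun x : I => l x) * ψ) ≠ 0 ∧
      Cfsg.indFun I ((fun x : I => l x) * ψ) = Cfsg.indFun I ψ * l := by
    intro l hl hl1 hlN
    have hirr : Cfsg.IsIrrCharacter I ((fun x : I => l x) * ψ) :=
      IsIrrCharacter.linear_mul (IsCharacter.restrict I hl) hl1 hψ
    refine ⟨hirr, ?_, ?_⟩
    · rw [classInner_indFun_toSubgroupOf N φ I hNI
        (IsCharacter.isClassFunction (IsIrrCharacter.isCharacter hirr))]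
      have : (fun n : N => ((fun x : I => l x) * ψ) ⟨(n : G), hNI n.2⟩) = φ := by
        funext n
        simp only [Pi.mul_apply, hext, hlN n n.2, one_mul]
      rw [this, classInner_irr hφ hφ, if_pos rfl]
      exact one_ne_zero
    · rw [mul_comm, indFun_mul_restrict I ψ (IsCharacter.isClassFunction hl)]
  obtain ⟨i1, o1, e1⟩ := key hl hl1 hlN
  obtain ⟨i2, o2, e2⟩ := key hl' hl1' hlN'
  have heq : (fun x : I => lam x) * ψ = (fun x : I => lam' x) * ψ := by
    by_contra hne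
    have h0 := c2 _ _ i1 i2 o1 o2 hne
    have hirr := c1 _ i1 o1
    rw [e2, ← h, ← e1, classInner_irr hirr hirr, if_pos rfl] at h0
    exact one_ne_zero h0
  have hψN : Cfsg.IsIrrCharacter (N.subgroupOf I) (fun n : N.subgroupOf I => ψ n) := by
    have := IsIrrCharacter.toSubgroupOf hNI hφ
    convert this using 1
    funext n
    exact hext ⟨((n : I) : G), n.2⟩
  have hinj := (gallagher (N.subgroupOf I) hψ hψN).injOn
  apply hinj _ _ heq
  · exact ⟨isIrr_of_linear (IsCharacter.restrict I hl) hl1, fun n hn => by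
      show lam (n : G) = lam ((1 : I) : G)
      exact (hlN (n : G) hn).trans hl1.symm⟩
  · exact ⟨isIrr_of_linear (IsCharacter.restrict I hl') hl1', fun n hn => by
      show lam' (n : G) = lam' ((1 : I) : G)
      exact (hlN' (n : G) hn).trans hl1'.symm⟩

theorem indFun_irr_of_ext (N : Subgroup G) [hN : N.Normal] [Fintype N] {φ : N → ℂ}
    (hφ : Cfsg.IsIrrCharacter N φ) (I : Subgroup G) [Fintype I]
    (hI : ∀ g, g ∈ I ↔ conjFun N g φ = φ) (hNI : N ≤ I)
    {ψ : I → ℂ} (hψ : Cfsg.IsIrrCharacter I ψ) (hext : ∀ n : N, ψ ⟨n, hNI n.2⟩ = φ n) :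
    Cfsg.IsIrrCharacter G (Cfsg.indFun I ψ) := by
  classical
  haveI := finite_irr (G := I)
  letI : Fintype (Cfsg.IrrCharacter I) := Fintype.ofFinite _
  obtain ⟨c1, -, -⟩ := clifford_main N hφ I hI
  apply c1 _ hψ
  rw [classInner_indFun_toSubgroupOf N φ I hNI
    (IsCharacter.isClassFunction (IsIrrCharacter.isCharacter hψ))]
  have : (fun n : N => ψ ⟨(n : G), hNI n.2⟩) = φ := funext hext
  rw [this, classInner_irr hφ hφ, if_pos rfl]
  exact one_ne_zero

/-- the counting inequality -/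
theorem card_linear_le (N : Subgroup G) [hN : N.Normal] [Fintype N] {φ : N → ℂ}
    (hφ : Cfsg.IsIrrCharacter N φ) (I : Subgroup G) [Fintype I]
    (hI : ∀ g, g ∈ I ↔ conjFun N g φ = φ) (hNI : N ≤ I)
    {ψ : I → ℂ} (hψ : Cfsg.IsIrrCharacter I ψ) (hext : ∀ n : N, ψ ⟨n, hNI n.2⟩ = φ n)
    (hperf : ∀ lam : G → ℂ, Cfsg.IsCharacter G lam → lam 1 = 1 → ∀ n ∈ N, lam n = 1) :
    Nat.card {χ : Cfsg.IrrCharacter G // (χ : G → ℂ) 1 = 1} ≤
      I.index * Nat.card {χ : Cfsg.IrrCharacter G // (χ : G → ℂ) 1 = (I.index : ℂ) * φ 1} := by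
  classical
  haveI := finite_irr (G := G)
  have hΨ := indFun_irr_of_ext N hφ I hI hNI hψ hext
  have hΨ1 : Cfsg.indFun I ψ 1 = (I.index : ℂ) * φ 1 := by
    have h1 : φ 1 = ψ 1 := (hext 1).symm
    rw [Cfsg.Agent.S0175.indFun_one, h1]
    have hIc : (Nat.card I : ℂ) ≠ 0 := card_subgroup_ne_zero _
    rw [← Subgroup.index_mul_card I]
    push_cast
    field_simp
  let F : {χ : Cfsg.IrrCharacter G // (χ : G → ℂ) 1 = 1} →
      {χ : Cfsg.IrrCharacter G // (χ : G → ℂ) 1 = (I.index : ℂ) * φ 1} := fun l =>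
    ⟨⟨(l.1 : G → ℂ) * Cfsg.indFun I ψ,
      IsIrrCharacter.linear_mul (IsIrrCharacter.isCharacter l.1.2) l.2 hΨ⟩, by
      show (l.1 : G → ℂ) 1 * Cfsg.indFun I ψ 1 = _
      rw [l.2, one_mul, hΨ1]⟩
  apply card_le_mul_of_fibres F
  intro b
  by_cases hb : Nonempty {a // F a = b}
  · obtain ⟨⟨l₀, hl₀⟩⟩ := hb
    refine le_trans ?_ (card_extensions_le I (θ := fun x : I => (l₀.1 : G → ℂ) x)
      (isIrr_of_linear (IsCharacter.restrict I (IsIrrCharacter.isCharacter l₀.1.2)) l₀.2))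
    apply Nat.card_le_card_of_injective
      (fun a : {a // F a = b} => (⟨a.1.1, by
        have h1 : F a.1 = F l₀ := a.2.trans hl₀.symm
        have h2 : (a.1.1 : G → ℂ) * Cfsg.indFun I ψ = (l₀.1 : G → ℂ) * Cfsg.indFun I ψ :=
          congrArg (fun x => (x.1 : G → ℂ)) h1
        rw [mul_comm, mul_comm (l₀.1 : G → ℂ)] at h2
        exact restrict_eq_of_mul_eq N hφ I hI hNI hψ hext
          (IsIrrCharacter.isCharacter a.1.1.2) a.1.2
          (hperf _ (IsIrrCharacter.isCharacter a.1.1.2) a.1.2)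
          (IsIrrCharacter.isCharacter l₀.1.2) l₀.2
          (hperf _ (IsIrrCharacter.isCharacter l₀.1.2) l₀.2) h2⟩ :
        {χ : Cfsg.IrrCharacter G // (fun x : I => (χ : G → ℂ) x) =
          fun x : I => (l₀.1 : G → ℂ) x}))
    intro a a' h
    apply Subtype.ext
    apply Subtype.ext
    exact congrArg (fun x => x.1) h
  · rw [not_nonempty_iff] at hb
    rw [Nat.card_of_isEmpty]
    exact Nat.zero_le _

end Cfsg.Agent.Lib.Helper13.LinCount
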