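import Mathlib
import Cfsg.Agent.Lib.Helper2.BrauerPerm
import Cfsg.Agent.Lib.Helper2.CharOps

set_option autoImplicit false
set_option linter.unusedSectionVars false
set_option linter.style.haveILetI false

/-! Orbits of a group on real characters and real classes of a normal subgroup of odd index. -/

namespace Cfsg.Agent.Lib.Helper13.RealOrb

open Cfsg Cfsg.Agent.Lib.Helper2
open scoped ComplexConjugate

section abstract

theorem twisted_fixed_iff {G Ω : Type*} [Group G] [MulAction G Ω] (σ : Ω → Ω)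
    (hσσ : ∀ ω, σ (σ ω) = ω) (hσ : ∀ (g : G) ω, σ (g • ω) = g • σ ω)
    {m : ℕ} (hm : Odd m) (g : G) (ω : Ω) (hgm : g ^ m • ω = ω) :
    σ (g • ω) = ω ↔ (g • ω = ω ∧ σ ω = ω) := by
  constructor
  · intro h
    have h1 : g • ω = σ ω := by
      have := congrArg σ h
      rwa [hσσ] at this
    have h2 : g • g • ω = ω := by rw [h1, ← hσ, h]
    have h3 : g ^ 2 ∈ MulAction.stabilizer G ω := by
      rw [MulAction.mem_stabilizer_iff, pow_two, mul_smul, h2]
    have h4 : g ^ m ∈ MulAction.stabilizer G ω := hgm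
    obtain ⟨k, hk⟩ := hm
    have h5 : g ∈ MulAction.stabilizer G ω := by
      have : g = g ^ m * ((g ^ 2) ^ k)⁻¹ := by
        rw [hk, ← pow_mul, pow_succ', mul_assoc, mul_inv_cancel, mul_one]
      rw [this]
      exact mul_mem h4 (inv_mem (pow_mem h3 k))
    have h6 : g • ω = ω := h5
    exact ⟨h6, by rw [← h1, h6]⟩
  · rintro ⟨h1, h2⟩
    rw [h1, h2]

theorem card_orbits_eq {G : Type*} [Group G] [Finite G] {Ω₁ Ω₂ : Type*} [Finite Ω₁] [Finite Ω₂]
    [MulAction G Ω₁] [MulAction G Ω₂]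
    (h : ∀ g : G, Nat.card (MulAction.fixedBy Ω₁ g) = Nat.card (MulAction.fixedBy Ω₂ g)) :
    Nat.card (MulAction.orbitRel.Quotient G Ω₁) = Nat.card (MulAction.orbitRel.Quotient G Ω₂) := by
  classical
  cases nonempty_fintype G
  cases nonempty_fintype Ω₁
  cases nonempty_fintype Ω₂
  have h1 := MulAction.sum_card_fixedBy_eq_card_orbits_mul_card_group G Ω₁
  have h2 := MulAction.sum_card_fixedBy_eq_card_orbits_mul_card_group G Ω₂
  have h3 : ∑ a : G, Fintype.card (MulAction.fixedBy Ω₁ a) =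
      ∑ a : G, Fintype.card (MulAction.fixedBy Ω₂ a) :=
    Finset.sum_congr rfl (fun g _ => by
      have := h g
      rwa [Nat.card_eq_fintype_card, Nat.card_eq_fintype_card] at this)
  rw [h1, h2] at h3
  have h4 := Nat.eq_of_mul_eq_mul_right Fintype.card_pos h3
  rw [Nat.card_eq_fintype_card, Nat.card_eq_fintype_card]
  exact h4

/-- the sub-action on the fixed points of a commuting map -/
def fixS {G Ω : Type*} [Group G] [MulAction G Ω] (σ : Ω → Ω)
    (hσ : ∀ (g : G) ω, σ (g • ω) = g • σ ω) : SubMulAction G Ω where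
  carrier := {ω | σ ω = ω}
  smul_mem' := fun g ω h => by
    show σ (g • ω) = g • ω
    rw [hσ, show σ ω = ω from h]

theorem card_fixedBy_fixS {G Ω : Type*} [Group G] [MulAction G Ω] (σ : Ω → Ω)
    (h1 : ∀ ω, σ (σ ω) = ω) (h2 : ∀ (g : G) ω, σ (g • ω) = g • σ ω) {m : ℕ} (hm : Odd m)
    (hmm : ∀ (g : G) (ω : Ω), g ^ m • ω = ω) (g : G) :
    Nat.card (MulAction.fixedBy (fixS σ h2) g) = Nat.card {ω : Ω // σ (g • ω) = ω} := by
  refine Nat.card_congr ⟨fun x => ⟨x.1.1, ?_⟩, fun y => ⟨⟨y.1, ?_⟩, ?_⟩, fun x => rfl, fun y => rfl⟩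
  · exact (twisted_fixed_iff σ h1 h2 hm g _ (hmm g _)).mpr ⟨congrArg Subtype.val x.2, x.1.2⟩
  · exact ((twisted_fixed_iff σ h1 h2 hm g _ (hmm g _)).mp y.2).2
  · exact Subtype.ext ((twisted_fixed_iff σ h1 h2 hm g _ (hmm g _)).mp y.2).1

theorem card_orbits_fix {G : Type*} [Group G] [Finite G] {Ω₁ Ω₂ : Type*} [Finite Ω₁] [Finite Ω₂]
    [MulAction G Ω₁] [MulAction G Ω₂] (σ₁ : Ω₁ → Ω₁) (σ₂ : Ω₂ → Ω₂)
    (h11 : ∀ ω, σ₁ (σ₁ ω) = ω) (h12 : ∀ (g : G) ω, σ₁ (g • ω) = g • σ₁ ω)
    (h21 : ∀ ω, σ₂ (σ₂ ω) = ω) (h22 : ∀ (g : G) ω, σ₂ (g • ω) = g • σ₂ ω)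
    {m : ℕ} (hm : Odd m) (hm1 : ∀ (g : G) (ω : Ω₁), g ^ m • ω = ω)
    (hm2 : ∀ (g : G) (ω : Ω₂), g ^ m • ω = ω)
    (hcount : ∀ g : G, Nat.card {ω : Ω₁ // σ₁ (g • ω) = ω} =
      Nat.card {ω : Ω₂ // σ₂ (g⁻¹ • ω) = ω}) :
    Nat.card (MulAction.orbitRel.Quotient G (fixS σ₁ h12)) =
      Nat.card (MulAction.orbitRel.Quotient G (fixS σ₂ h22)) := by
  apply card_orbits_eq
  intro g
  rw [card_fixedBy_fixS σ₁ h11 h12 hm hm1 g, hcount g, ← card_fixedBy_fixS σ₂ h21 h22 hm hm2 g⁻¹,
    MulAction.fixedBy_inv]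

end abstract

section concrete

variable {G : Type*} [Group G] (K : Subgroup G) [K.Normal] [Fintype K]

/-- conjugation action on irreducible characters of a normal subgroup -/
@[reducible] noncomputable def actI : MulAction G (IrrCharacter K) where
  smul g θ := ⟨(θ : K → ℂ) ∘ (MulAut.conjNormal g⁻¹ : MulAut K),
    IsIrrCharacter.comp_mulEquiv θ.2 _⟩
  one_smul θ := by
    apply Subtype.ext
    funext k
    show (θ : K → ℂ) ((MulAut.conjNormal (1 : G)⁻¹ : MulAut K) k) = _
    simp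
  mul_smul g h θ := by
    apply Subtype.ext
    funext k
    show (θ : K → ℂ) ((MulAut.conjNormal (g * h)⁻¹ : MulAut K) k) =
      (θ : K → ℂ) ((MulAut.conjNormal h⁻¹ : MulAut K) ((MulAut.conjNormal g⁻¹ : MulAut K) k))
    rw [mul_inv_rev, map_mul]
    rfl

/-- complex conjugation on irreducible characters -/
noncomputable def sigI (θ : IrrCharacter K) : IrrCharacter K :=
  ⟨fun k => conj ((θ : K → ℂ) k), IsIrrCharacter.conj θ.2⟩

/-- conjugation action on classes of a normal subgroup -/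
@[reducible] def actC : MulAction G (ConjClasses K) where
  smul g C := ConjClasses.map (MulAut.conjNormal g : MulAut K).toMonoidHom C
  one_smul C := by
    obtain ⟨k, rfl⟩ := C.exists_rep
    show ConjClasses.mk ((MulAut.conjNormal (1 : G) : MulAut K) k) = _
    simp
  mul_smul g h C := by
    obtain ⟨k, rfl⟩ := C.exists_rep
    show ConjClasses.mk ((MulAut.conjNormal (g * h) : MulAut K) k) =
      ConjClasses.mk ((MulAut.conjNormal g : MulAut K) ((MulAut.conjNormal h : MulAut K) k))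
    rw [map_mul]
    rfl

theorem isConj_inv' {X : Type*} [Group X] {a b : X} (h : IsConj a b) : IsConj a⁻¹ b⁻¹ := by
  rw [isConj_iff] at h ⊢
  obtain ⟨c, rfl⟩ := h
  exact ⟨c, by group⟩

/-- inversion on classes -/
def sigC (C : ConjClasses K) : ConjClasses K :=
  Quotient.map (fun k : K => k⁻¹) (fun _ _ h => isConj_inv' h) C

theorem sigC_mk (k : K) : sigC K (ConjClasses.mk k) = ConjClasses.mk k⁻¹ := rfl

theorem main [Finite G] (hodd : Odd K.index) :
    Nat.card (Quot (fun θ η : {θ : IrrCharacter K // (∀ k : K, ((θ : K → ℂ) k).im = 0)} =>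
      ∃ g : G, ∀ k k' : K, (k' : G) = g * (k : G) * g⁻¹ → (η.1 : K → ℂ) k' = (θ.1 : K → ℂ) k)) =
    Nat.card (Quot (fun x y : {x : K // IsConj x x⁻¹} => ∃ g : G, (y.1 : G) = g * x.1 * g⁻¹)) := by
  classical
  letI := actI K
  letI := actC K
  haveI : Finite (IrrCharacter K) := finite_irr
  have smulI : ∀ (g : G) (θ : IrrCharacter K) (k : K), ((g • θ : IrrCharacter K) : K → ℂ) k =
      (θ : K → ℂ) ((MulAut.conjNormal g⁻¹ : MulAut K) k) := fun _ _ _ => rfl
  have smulC : ∀ (g : G) (k : K), g • ConjClasses.mk k =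
      ConjClasses.mk ((MulAut.conjNormal g : MulAut K) k) := fun _ _ => rfl
  have h11 : ∀ θ, sigI K (sigI K θ) = θ := by
    intro θ
    apply Subtype.ext
    funext k
    exact Complex.conj_conj _
  have h12 : ∀ (g : G) θ, sigI K (g • θ) = g • sigI K θ := fun g θ => rfl
  have h21 : ∀ C, sigC K (sigC K C) = C := by
    intro C
    obtain ⟨k, rfl⟩ := C.exists_rep
    rw [sigC_mk, sigC_mk, inv_inv]
  have h22 : ∀ (g : G) C, sigC K (g • C) = g • sigC K C := by
    intro g C
    obtain ⟨k, rfl⟩ := C.exists_rep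
    rw [smulC, sigC_mk, sigC_mk, smulC, map_inv]
  have hm1 : ∀ (g : G) (θ : IrrCharacter K), g ^ K.index • θ = θ := by
    intro g θ
    apply Subtype.ext
    funext k
    rw [smulI]
    have hu := K.pow_index_mem g
    have hcl := IsCharacter.isClassFunction (IsIrrCharacter.isCharacter θ.2)
    have : (MulAut.conjNormal (g ^ K.index)⁻¹ : MulAut K) k =
        (⟨g ^ K.index, hu⟩ : K)⁻¹ * k * (⟨g ^ K.index, hu⟩ : K)⁻¹⁻¹ := by
      apply Subtype.ext
      rw [MulAut.conjNormal_apply]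
      rfl
    rw [this, hcl]
  have hm2 : ∀ (g : G) (C : ConjClasses K), g ^ K.index • C = C := by
    intro g C
    obtain ⟨k, rfl⟩ := C.exists_rep
    rw [smulC, ConjClasses.mk_eq_mk_iff_isConj, isConj_comm, isConj_iff]
    exact ⟨⟨g ^ K.index, K.pow_index_mem g⟩, Subtype.ext (by rw [MulAut.conjNormal_apply]; rfl)⟩
  have hcount : ∀ g : G, Nat.card {θ : IrrCharacter K // sigI K (g • θ) = θ} =
      Nat.card {C : ConjClasses K // sigC K (g⁻¹ • C) = C} := by
    intro g
    have h := brauer_count (G := K) (fun k => ((MulAut.conjNormal g⁻¹ : MulAut K) k)⁻¹)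
      (fun χ hχ => by
        have : χ ∘ (fun k => ((MulAut.conjNormal g⁻¹ : MulAut K) k)⁻¹) =
            fun k => conj ((χ ∘ (MulAut.conjNormal g⁻¹ : MulAut K)) k) :=
          funext fun k => IsCharacter.apply_inv (IsIrrCharacter.isCharacter hχ) _
        rw [this]
        exact IsIrrCharacter.conj (IsIrrCharacter.comp_mulEquiv hχ _))
      (fun C => sigC K (g⁻¹ • C) = C) (fun k => by
        rw [smulC, sigC_mk, ConjClasses.mk_eq_mk_iff_isConj])
    rw [← h]
    refine Nat.card_congr (Equiv.subtypeEquivRight fun θ => ?_)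
    have e : ((sigI K (g • θ) : IrrCharacter K) : K → ℂ) =
        (θ : K → ℂ) ∘ (fun k => ((MulAut.conjNormal g⁻¹ : MulAut K) k)⁻¹) :=
      funext fun k => (IsCharacter.apply_inv (IsIrrCharacter.isCharacter θ.2) _).symm
    rw [Subtype.ext_iff, e]
  have key := card_orbits_fix (G := G) (sigI K) (sigC K) h11 h12 h21 h22 hodd hm1 hm2 hcount
  have hL : Nat.card (Quot (fun θ η : {θ : IrrCharacter K // (∀ k : K, ((θ : K → ℂ) k).im = 0)} =>
      ∃ g : G, ∀ k k' : K, (k' : G) = g * (k : G) * g⁻¹ → (η.1 : K → ℂ) k' = (θ.1 : K → ℂ) k)) =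
      Nat.card (MulAction.orbitRel.Quotient G (fixS (sigI K) h12)) := by
    refine Nat.card_congr (Quot.congr (Equiv.subtypeEquivRight fun θ => ?_) ?_)
    · show _ ↔ sigI K θ = θ
      rw [Subtype.ext_iff]
      constructor
      · intro h
        funext k
        exact Complex.conj_eq_iff_im.mpr (h k)
      · intro h k
        exact Complex.conj_eq_iff_im.mp (congrFun h k)
    · intro θ η
      constructor
      · rintro ⟨g, hg⟩
        refine ⟨g⁻¹, Subtype.ext (Subtype.ext (funext fun k => ?_))⟩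
        show (η.1 : K → ℂ) ((MulAut.conjNormal g⁻¹⁻¹ : MulAut K) k) = _
        exact hg k _ (by simp [MulAut.conjNormal_apply])
      · rintro ⟨g, hg⟩
        refine ⟨g⁻¹, fun k k' hk => ?_⟩
        have h1 := congrFun (congrArg (fun x => ((x : fixS (sigI K) h12).1 : K → ℂ)) hg) k
        have h2 : (η.1 : K → ℂ) ((MulAut.conjNormal g⁻¹ : MulAut K) k) = (θ.1 : K → ℂ) k := h1
        rw [← h2]
        have h3 : k' = (MulAut.conjNormal g⁻¹ : MulAut K) k := by
          apply Subtype.ext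
          rw [hk, MulAut.conjNormal_apply]
        rw [h3]
  have hR : Nat.card (Quot (fun x y : {x : K // IsConj x x⁻¹} =>
      ∃ g : G, (y.1 : G) = g * x.1 * g⁻¹)) =
      Nat.card (MulAction.orbitRel.Quotient G (fixS (sigC K) h22)) := by
    have hx : ∀ x : {x : K // IsConj x x⁻¹}, ConjClasses.mk x.1 ∈ fixS (sigC K) h22 := by
      intro x
      show sigC K (ConjClasses.mk x.1) = ConjClasses.mk x.1
      rw [sigC_mk, ConjClasses.mk_eq_mk_iff_isConj]
      exact x.2.symm
    let f : Quot (fun x y : {x : K // IsConj x x⁻¹} => ∃ g : G, (y.1 : G) = g * x.1 * g⁻¹) →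
        MulAction.orbitRel.Quotient G (fixS (sigC K) h22) :=
      Quot.lift (fun x => Quotient.mk _ ⟨ConjClasses.mk x.1, hx x⟩) (by
        rintro x y ⟨g, hg⟩
        apply Quotient.sound
        refine ⟨g⁻¹, Subtype.ext ?_⟩
        show ConjClasses.mk ((MulAut.conjNormal g⁻¹ : MulAut K) y.1) = ConjClasses.mk x.1
        congr 1
        apply Subtype.ext
        rw [MulAut.conjNormal_apply, hg]
        group)
    refine Nat.card_congr (Equiv.ofBijective f ⟨?_, ?_⟩)
    · intro a b hab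
      induction a using Quot.inductionOn with
      | _ x =>
      induction b using Quot.inductionOn with
      | _ y =>
      have h1 : (Quotient.mk _ ⟨ConjClasses.mk x.1, hx x⟩ :
          MulAction.orbitRel.Quotient G (fixS (sigC K) h22)) =
          Quotient.mk _ ⟨ConjClasses.mk y.1, hx y⟩ := hab
      obtain ⟨g, hg⟩ := Quotient.exact h1
      have h2 : ConjClasses.mk ((MulAut.conjNormal g : MulAut K) y.1) = ConjClasses.mk x.1 :=
        congrArg Subtype.val hg
      rw [ConjClasses.mk_eq_mk_iff_isConj, isConj_iff] at h2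
      obtain ⟨u, hu⟩ := h2
      refine (Quot.sound ⟨(u : G) * g, ?_⟩).symm
      rw [← hu]
      simp [MulAut.conjNormal_apply, mul_assoc]
    · intro b
      induction b using Quotient.inductionOn with
      | _ C =>
      obtain ⟨C, hC⟩ := C
      obtain ⟨k, rfl⟩ := C.exists_rep
      have hk : IsConj k k⁻¹ := by
        have h1 : sigC K (ConjClasses.mk k) = ConjClasses.mk k := hC
        rw [sigC_mk, ConjClasses.mk_eq_mk_iff_isConj] at h1
        exact h1.symm
      exact ⟨Quot.mk _ ⟨k, hk⟩, rfl⟩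
  rw [hL, hR, key]

end concrete

end Cfsg.Agent.Lib.Helper13.RealOrb
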