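import Mathlib
import Cfsg.Agent.Lib.Helper13.SectionFn
import Cfsg.Agent.Lib.Helper6.Height

set_option autoImplicit false
set_option linter.style.haveILetI false
set_option linter.unusedSectionVars false

/-! Irreducible characters modulo a maximal ideal over `p` separate the `p`-sections. -/

namespace Cfsg.Agent.Lib.Helper13.SectionFn

open Cfsg Cfsg.Agent.Lib.Helper2 Cfsg.Agent.Lib.Helper6
open scoped ComplexConjugate

universe u

variable {G : Type u} [Group G] [Finite G] {p : ℕ} {M : Ideal Cfsg.AlgInt}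

/-- a character is congruent on `x` and on its `p`-regular part -/
theorem char_sub_reg_memLocalIdeal (hM : Cfsg.IsPModular p M) {χ : G → ℂ}
    (hχ : Cfsg.IsCharacter G χ) {u v : G} (hc : Commute u v) {k : ℕ} (hu : orderOf u = p ^ k) :
    Cfsg.MemLocalIdeal M (χ (u * v) - χ v) := by
  cases nonempty_fintype G
  exact char_mul_sub_memLocalIdeal hM hχ hc (by rw [← hu]; exact pow_orderOf_eq_one u)

/-- the irreducible characters modulo `M` separate the `p`-sections -/
theorem isConj_reg_of_congr (hM : Cfsg.IsPModular p M) {u v u' v' : G} (hc : Commute u v)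
    {k : ℕ} (hu : orderOf u = p ^ k) (hv : ¬ p ∣ orderOf v) (hc' : Commute u' v') {k' : ℕ}
    (hu' : orderOf u' = p ^ k') (hv' : ¬ p ∣ orderOf v')
    (h : ∀ χ : Cfsg.IrrCharacter G,
      Cfsg.MemLocalIdeal M ((χ : G → ℂ) (u * v) - (χ : G → ℂ) (u' * v'))) : IsConj v v' := by
  classical
  cases nonempty_fintype G
  haveI := finite_irr (G := G)
  letI : Fintype (Cfsg.IrrCharacter G) := Fintype.ofFinite _
  haveI := IsPModular.isPrime hM
  have hp : p.Prime := hM.1
  obtain ⟨a, s, hs, hcard⟩ := Nat.exists_eq_pow_mul_and_not_dvd (Nat.card_pos (α := G)).ne' p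
    hp.ne_one
  have hcop : Nat.Coprime (p ^ a) s :=
    Nat.Coprime.pow_left a ((Nat.Prime.coprime_iff_not_dvd hp).mpr hs)
  obtain ⟨e, he0', he1⟩ := Nat.chineseRemainder hcop 0 1
  have he0 : p ^ a ∣ e := (Nat.modEq_zero_iff_dvd).mp he0'
  have cop1 : ∀ {w : G} {j : ℕ}, orderOf w = p ^ j → Nat.Coprime (orderOf w) s := by
    intro w j hw
    rw [hw]
    exact Nat.Coprime.pow_left j ((Nat.Prime.coprime_iff_not_dvd hp).mpr hs)
  have cop2 : ∀ {w : G}, ¬ p ∣ orderOf w → Nat.Coprime (orderOf w) (p ^ a) := by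
    intro w hw
    exact Nat.Coprime.pow_right a ((Nat.Prime.coprime_iff_not_dvd hp).mpr hw).symm
  have e1 : v = (u * v) ^ e := part_eq_pow hcard he0 he1 rfl hc (cop1 hu) (cop2 hv)
  have e2 : v' = (u' * v') ^ e := part_eq_pow hcard he0 he1 rfl hc' (cop1 hu') (cop2 hv')
  let f : G → ℂ := fun w => if IsConj w v then 1 else 0
  have hf : ∀ w, IsIntegral ℤ (f w) := by
    intro w
    simp only [f]
    split_ifs
    · exact isIntegral_one
    · exact isIntegral_zero
  have hfc : Cfsg.IsClassFunction G f := by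
    intro w h
    have : IsConj (h * w * h⁻¹) v ↔ IsConj w v :=
      ⟨fun hh => (isConj_iff.mpr ⟨h, rfl⟩ : IsConj w (h * w * h⁻¹)).trans hh,
        fun hh => (isConj_iff.mpr ⟨h, rfl⟩ : IsConj w (h * w * h⁻¹)).symm.trans hh⟩
    simp only [f, this]
  obtain ⟨c, hcint, hsum⟩ := section_eq_sum hcard hcop he0 he1 f hf hfc
  by_contra hcon
  have v1 := congrFun hsum (u * v)
  have v2 := congrFun hsum (u' * v')
  simp only [Finset.sum_apply, Pi.smul_apply, smul_eq_mul] at v1 v2
  rw [← e1] at v1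
  rw [← e2] at v2
  have f1 : f v = 1 := if_pos (IsConj.refl v)
  have f2 : f v' = 0 := if_neg (fun hh => hcon hh.symm)
  rw [f1, mul_one] at v1
  rw [f2, mul_zero] at v2
  have hdiff : Cfsg.MemLocalIdeal M ((s : ℂ) - 0) := by
    rw [v1, v2, ← Finset.sum_sub_distrib]
    refine MemLocalIdeal.sum _ fun χ _ => ?_
    rw [← mul_sub]
    exact MemLocalIdeal.mul_left (memLocalRing_of_isIntegral (hcint χ)) (h χ)
  rw [sub_zero, memLocalIdeal_natCast_iff hM] at hdiff
  exact hs hdiff

end Cfsg.Agent.Lib.Helper13.SectionFn
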