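import Mathlib
import Cfsg.Agent.Lib.Helper13.SectionSep
import Cfsg.Agent.Lib.Helper24.DefectZero

set_option autoImplicit false
set_option linter.style.haveILetI false
set_option linter.unusedSectionVars false

/-! `χ(g)^(p^k) ≡ χ(g^(p^k))` modulo `p`. -/

namespace Cfsg.Agent.Lib.Helper13.SectionFn

open Cfsg Cfsg.Agent.Lib.Helper2 Cfsg.Agent.Lib.Helper6
open scoped ComplexConjugate

theorem exists_sum_pow {R : Type*} [CommRing R] {p : ℕ} (hp : p.Prime) (k : ℕ) {ι : Type*}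
    (s : Finset ι) (z : ι → R) :
    ∃ r : R, (∑ i ∈ s, z i) ^ (p ^ k) = ∑ i ∈ s, z i ^ (p ^ k) + (p : R) * r := by
  classical
  induction s using Finset.induction_on with
  | empty =>
    refine ⟨0, ?_⟩
    simp only [Finset.sum_empty, mul_zero, add_zero]
    exact zero_pow (pow_pos hp.pos k).ne'
  | insert a s ha ih =>
    obtain ⟨r, hr⟩ := ih
    obtain ⟨r', hr'⟩ := exists_add_pow_prime_pow_eq hp (z a) (∑ i ∈ s, z i) k
    refine ⟨r + z a * (∑ i ∈ s, z i) * r', ?_⟩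
    rw [Finset.sum_insert ha, Finset.sum_insert ha, hr', hr]
    ring

theorem char_pow_congr {G : Type*} [Group G] [Finite G] {p : ℕ} (hp : p.Prime) {χ : G → ℂ}
    (hχ : Cfsg.IsCharacter G χ) (g : G) (k : ℕ) :
    ∃ γ : Cfsg.AlgInt, χ g ^ (p ^ k) - χ (g ^ (p ^ k)) = (p : ℂ) * (γ : ℂ) := by
  obtain ⟨n, ρ, rfl⟩ := hχ
  obtain ⟨ζ, hζ, h⟩ := char_zpow_eq_sum ρ g
  have h1 := h 1
  have h2 := h ((p ^ k : ℕ) : ℤ)
  simp only [zpow_one, zpow_natCast] at h1 h2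
  have hint : ∀ i, IsIntegral ℤ (ζ i) := fun i =>
    IsIntegral.of_pow (orderOf_pos g) (by rw [hζ i]; exact isIntegral_one)
  obtain ⟨r, hr⟩ := exists_sum_pow hp k Finset.univ (fun i => (⟨ζ i, hint i⟩ : Cfsg.AlgInt))
  refine ⟨r, ?_⟩
  have hr' := congrArg (fun z : Cfsg.AlgInt => (z : ℂ)) hr
  push_cast at hr'
  rw [h1, h2, hr']
  ring

end Cfsg.Agent.Lib.Helper13.SectionFn
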