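import Mathlib
import Cfsg.Agent.Lib.Helper25.Extraspecial
import Cfsg.Agent.Lib.Helper13.Ito
import Cfsg.Agent.Lib.Helper13.Clifford4
import Cfsg.Agent.Lib.Helper1.Carter
import Cfsg.Agent.Lib.Helper1.PGrp
import Cfsg.Agent.Lib.Helper16.Frat
import Cfsg.Agent.Lib.Helper6.LinChar

set_option autoImplicit false
set_option linter.style.haveILetI false
set_option linter.unusedSectionVars false

/-! Nilpotent groups with a unique irreducible character of degree divisible by `p`. -/

namespace Cfsg.Agent.Lib.Helper13.UniqueP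

open Cfsg Cfsg.Agent.Lib.Helper2 Cfsg.Agent.Lib.Helper6 Cfsg.Agent.Lib.Helper24
open Cfsg.Agent.Lib.Helper13
open scoped commutatorElement

attribute [local instance] irrFintype

variable {G : Type*} [Group G]

theorem ker_of_degree_one {χ : G → ℂ} (hχ : IsCharacter G χ) (h1 : χ 1 = 1) :
    ∀ x ∈ commutator G, χ x = χ 1 := by
  obtain ⟨f, rfl⟩ := exists_hom_of_linear hχ h1
  intro x hx
  have h2 : x ∈ f.ker := Abelianization.commutator_subset_ker f hx
  rw [linCoe_apply, linCoe_apply, MonoidHom.mem_ker.mp h2, map_one]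

theorem comm_mem (x y : G) : x * y * x⁻¹ * y⁻¹ ∈ commutator G :=
  Subgroup.commutator_mem_commutator (Subgroup.mem_top x) (Subgroup.mem_top y)

variable [Finite G]

theorem degree_one_iff {χ : G → ℂ} (hχ : IsIrrCharacter G χ) :
    charDegree χ = 1 ↔ ∀ x ∈ commutator G, χ x = χ 1 := by
  have hc := charDegree_cast (IsIrrCharacter.isCharacter hχ)
  constructor
  · intro h
    apply ker_of_degree_one (IsIrrCharacter.isCharacter hχ)
    rw [← hc, h]; simp
  · intro h
    cases nonempty_fintype G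
    have h1 := degree_one_of_abelian_quotient (commutator G) comm_mem hχ h
    rw [h1] at hc
    exact_mod_cast hc

/-- extraspecial `2`-groups have a unique irreducible character of even degree -/
theorem extraspecial_unique (hP : IsExtraspecial 2 G) :
    Nat.card {χ : IrrCharacter G // 2 ∣ charDegree (χ : G → ℂ)} = 1 := by
  classical
  haveI : Fact (Nat.Prime 2) := ⟨Nat.prime_two⟩
  set Z := Subgroup.center G with hZ
  have hS1 := sum_degree_sq_nat (G := G)
  have hS2 := sum_degree_sq_normal (G := G) Z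
  have hcard : 2 * Z.index = Nat.card G := by
    rw [← hP.2, Subgroup.card_mul_index]
  have hidx : 0 < Z.index := Nat.pos_of_ne_zero Subgroup.index_ne_zero_of_finite
  have hdeg : ∀ χ : IrrCharacter G, ¬ (∀ n ∈ Z, (χ : G → ℂ) n = (χ : G → ℂ) 1) →
      charDegree (χ : G → ℂ) ^ 2 = Z.index := by
    intro χ hχ
    have := Cfsg.Agent.Lib.Helper25.Extraspecial.degree_sq hP χ.2 hχ
    omega
  have hsplit : ∑ χ : IrrCharacter G, charDegree (χ : G → ℂ) ^ 2 =
      ∑ χ : IrrCharacter G, (if ∀ n ∈ Z, (χ : G → ℂ) n = (χ : G → ℂ) 1 then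
        charDegree (χ : G → ℂ) ^ 2 else 0) +
      ∑ χ : IrrCharacter G, (if ∀ n ∈ Z, (χ : G → ℂ) n = (χ : G → ℂ) 1 then 0 else Z.index) := by
    rw [← Finset.sum_add_distrib]
    refine Finset.sum_congr rfl fun χ _ => ?_
    by_cases h : ∀ n ∈ Z, (χ : G → ℂ) n = (χ : G → ℂ) 1
    · rw [if_pos h, if_pos h, add_zero]
    · rw [if_neg h, if_neg h, zero_add, hdeg χ h]
  rw [hS1, hS2] at hsplit
  have hcount : (Finset.univ.filter
      (fun χ : IrrCharacter G => ¬ ∀ n ∈ Z, (χ : G → ℂ) n = (χ : G → ℂ) 1)).card = 1 := by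
    have h1 : ∑ χ : IrrCharacter G,
        (if ∀ n ∈ Z, (χ : G → ℂ) n = (χ : G → ℂ) 1 then 0 else Z.index) =
        (Finset.univ.filter
          (fun χ : IrrCharacter G => ¬ ∀ n ∈ Z, (χ : G → ℂ) n = (χ : G → ℂ) 1)).card * Z.index := by
      rw [Finset.card_filter, Finset.sum_mul]
      refine Finset.sum_congr rfl fun χ _ => ?_
      by_cases h : ∀ n ∈ Z, (χ : G → ℂ) n = (χ : G → ℂ) 1
      · rw [if_pos h, if_neg (not_not.mpr h), zero_mul]
      · rw [if_neg h, if_pos h, one_mul]
    rw [h1] at hsplit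
    have h2 : (Finset.univ.filter
      (fun χ : IrrCharacter G => ¬ ∀ n ∈ Z, (χ : G → ℂ) n = (χ : G → ℂ) 1)).card * Z.index =
        1 * Z.index := by omega
    exact Nat.eq_of_mul_eq_mul_right hidx h2
  rw [← hcount, Nat.card_eq_fintype_card, Fintype.card_subtype]
  congr 1
  ext χ
  simp only [Finset.mem_filter, Finset.mem_univ, true_and]
  constructor
  · intro h2 hk
    have h1 := Cfsg.Agent.Lib.Helper25.Extraspecial.degree_one hP χ.2 hk
    have hc := charDegree_cast (IsIrrCharacter.isCharacter χ.2)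
    rw [h1] at hc
    have : charDegree (χ : G → ℂ) = 1 := by exact_mod_cast hc
    rw [this] at h2
    omega
  · intro hk
    have hd := hdeg χ hk
    have hne : charDegree (χ : G → ℂ) ≠ 1 := by
      intro h1
      apply hk
      rw [hZ, ← hP.1.2.2]
      exact (degree_one_iff χ.2).mp h1
    obtain ⟨q, hq, hqd⟩ := Nat.exists_prime_and_dvd hne
    obtain ⟨n, hn⟩ := (IsPGroup.iff_card (p := 2) (G := G)).mp hP.1.1
    have h3 : q ∣ 2 ^ n := by
      rw [← hn]
      exact hqd.trans (degree_dvd_card χ.2)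
    have h4 := (Nat.prime_dvd_prime_iff_eq hq Nat.prime_two).mp (hq.dvd_of_dvd_pow h3)
    rwa [h4] at hqd

/-- a normal subgroup of order two is central -/
theorem le_center_of_card_two {D : Subgroup G} [hD : D.Normal] (h : Nat.card D = 2) :
    D ≤ Subgroup.center G := by
  intro x hx
  rw [Subgroup.mem_center_iff]
  intro g
  by_cases hx1 : x = 1
  · subst hx1; simp
  · have h1 : g * x * g⁻¹ ∈ D := hD.conj_mem x hx g
    have h2 : g * x * g⁻¹ ≠ 1 := by
      intro h
      apply hx1
      have : x = g⁻¹ * (g * x * g⁻¹) * g := by group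
      rw [this, h]; group
    have h3 : ∀ a b : D, a ≠ 1 → b ≠ 1 → a = b := by
      intro a b ha hb
      by_contra hab
      have : 3 ≤ Nat.card D := by
        classical
        cases nonempty_fintype D
        rw [Nat.card_eq_fintype_card]
        have : ({1, a, b} : Finset D).card = 3 := by
          rw [Finset.card_insert_of_notMem, Finset.card_insert_of_notMem, Finset.card_singleton]
          · simpa using hab
          · simp only [Finset.mem_insert, Finset.mem_singleton, not_or]
            exact ⟨fun h => ha h.symm, fun h => hb h.symm⟩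
        rw [← this]
        exact Finset.card_le_univ _
      omega
    have h4 := h3 ⟨g * x * g⁻¹, h1⟩ ⟨x, hx⟩ (fun h => h2 (congrArg Subtype.val h))
      (fun h => hx1 (congrArg Subtype.val h))
    have h5 : g * x * g⁻¹ = x := congrArg Subtype.val h4
    calc g * x = g * x * g⁻¹ * g := by group
      _ = x * g := by rw [h5]

/-- the `p`-group case -/
theorem pgroup_case {p : ℕ} [hp : Fact p.Prime] (hG : IsPGroup p G)
    (h : Nat.card {χ : IrrCharacter G // p ∣ charDegree (χ : G → ℂ)} = 1) :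
    p = 2 ∧ IsExtraspecial 2 G := by
  classical
  obtain ⟨n, hn⟩ := (IsPGroup.iff_card (p := p) (G := G)).mp hG
  obtain ⟨⟨χ₀, hχ₀⟩, huniq⟩ := Nat.card_eq_one_iff_exists.mp h
  have huniq' : ∀ χ : IrrCharacter G, p ∣ charDegree (χ : G → ℂ) → χ = χ₀ := fun χ hχ =>
    congrArg Subtype.val (huniq ⟨χ, hχ⟩)
  have hdeg1 : ∀ χ : IrrCharacter G, χ ≠ χ₀ → charDegree (χ : G → ℂ) = 1 := by
    intro χ hχ
    have h1 : charDegree (χ : G → ℂ) ∣ p ^ n := hn ▸ degree_dvd_card χ.2
    obtain ⟨k, -, hk⟩ := (Nat.dvd_prime_pow hp.out).mp h1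
    rcases Nat.eq_zero_or_pos k with rfl | hk0
    · simpa using hk
    · exact absurd (huniq' χ (hk ▸ dvd_pow_self p hk0.ne')) hχ
  set D := commutator G with hD
  have hS1 := sum_degree_sq_nat (G := G)
  have hS2 := sum_degree_sq_normal (G := G) D
  have hne1 : charDegree (χ₀ : G → ℂ) ≠ 1 := by
    intro h1
    rw [h1] at hχ₀
    exact hp.out.one_lt.ne' (Nat.dvd_one.mp hχ₀)
  have hkey : Nat.card G = D.index + charDegree (χ₀ : G → ℂ) ^ 2 := by
    rw [← hS1, ← hS2, ← Finset.add_sum_erase _ _ (Finset.mem_univ χ₀),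
      ← Finset.add_sum_erase (a := χ₀) _ (fun χ : IrrCharacter G =>
        if ∀ n ∈ D, (χ : G → ℂ) n = (χ : G → ℂ) 1 then charDegree (χ : G → ℂ) ^ 2 else 0)
        (Finset.mem_univ χ₀),
      if_neg (fun hk => hne1 ((degree_one_iff χ₀.2).mpr hk)), zero_add, add_comm]
    congr 1
    refine Finset.sum_congr rfl fun χ hχ => ?_
    rw [if_pos ((degree_one_iff χ.2).mp (hdeg1 χ (Finset.ne_of_mem_erase hχ)))]
  have hmul : Nat.card D * D.index = Nat.card G := Subgroup.card_mul_index D
  obtain ⟨b, hb⟩ := (IsPGroup.iff_card (p := p) (G := D)).mp (hG.to_subgroup D)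
  obtain ⟨c, -, hc⟩ := (Nat.dvd_prime_pow hp.out).mp (hn ▸ degree_dvd_card χ₀.2)
  obtain ⟨a, -, ha⟩ := (Nat.dvd_prime_pow hp.out).mp (hn ▸ Subgroup.index_dvd_card D)
  have hc0 : c ≠ 0 := by
    rintro rfl
    exact hne1 (by simpa using hc)
  have hpos : 0 < p := hp.out.pos
  have e1 : p ^ a * (p ^ b - 1) = p ^ (2 * c) := by
    have h1 : p ^ b * p ^ a = p ^ a + (p ^ c) ^ 2 := by
      rw [← hb, ← ha, ← hc, hmul, hkey]
    have h2 : 1 ≤ p ^ b := Nat.one_le_pow _ _ hpos
    rw [Nat.mul_sub, mul_one, pow_mul', mul_comm]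
    omega
  have hb0 : b ≠ 0 := by
    rintro rfl
    simp only [pow_zero, Nat.sub_self, mul_zero] at e1
    exact (pow_pos hpos (2 * c)).ne e1
  have e2 : p ^ b - 1 = 1 := by
    have h1 : (p ^ b - 1) ∣ p ^ (2 * c) := Dvd.intro_left _ e1
    have h2 : Nat.Coprime (p ^ b - 1) (p ^ (2 * c)) := by
      apply Nat.Coprime.pow_right
      rw [Nat.coprime_comm, Nat.Prime.coprime_iff_not_dvd hp.out]
      intro h3
      have h4 : p ∣ p ^ b := dvd_pow_self p hb0
      have h5 : 1 ≤ p ^ b := Nat.one_le_pow _ _ hpos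
      have h6 : p ∣ 1 := by
        have := (Nat.dvd_sub h4 h3)
        rwa [Nat.sub_sub_self h5] at this
      exact hp.out.one_lt.ne' (Nat.dvd_one.mp h6)
    exact Nat.Coprime.eq_one_of_dvd h2 h1
  have e3 : p ^ b = 2 := by
    have h5 : 1 ≤ p ^ b := Nat.one_le_pow _ _ hpos
    omega
  have hp2 : p = 2 := by
    have h1 : p ∣ 2 := e3 ▸ dvd_pow_self p hb0
    exact (Nat.prime_dvd_prime_iff_eq hp.out Nat.prime_two).mp h1
  subst hp2
  have hD2 : Nat.card D = 2 := hb.trans e3
  have hDZ : D ≤ Subgroup.center G := le_center_of_card_two hD2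
  have hZle := card_center_mul_degree_sq_le χ₀.2
  have hidx : 0 < D.index := Nat.pos_of_ne_zero Subgroup.index_ne_zero_of_finite
  have hsq : charDegree (χ₀ : G → ℂ) ^ 2 = D.index := by
    rw [hD2] at hmul
    omega
  have hZ2 : Nat.card (Subgroup.center G) ≤ 2 := by
    rw [hsq, ← hmul, hD2] at hZle
    exact Nat.le_of_mul_le_mul_right hZle hidx
  have hDeq : D = Subgroup.center G :=
    Subgroup.eq_of_le_of_card_ge hDZ (by rw [hD2]; exact hZ2)
  refine ⟨rfl, ⟨hG, ?_, hDeq⟩, by rw [← hDeq, hD2]⟩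
  apply le_antisymm
  · apply Cfsg.Agent.Lib.Helper16.frattini_le_of_elemAb (p := 2) hDeq.le
    intro x
    rw [Subgroup.mem_center_iff]
    intro g
    set c := x * g * x⁻¹ * g⁻¹ with hcdef
    have hcD : c ∈ D := comm_mem x g
    have hcZ := Subgroup.mem_center_iff.mp (hDZ hcD)
    have hc2 : c * c = 1 := by
      have := orderOf_dvd_natCard (⟨c, hcD⟩ : D)
      rw [hD2, Subgroup.orderOf_mk] at this
      have := orderOf_dvd_iff_pow_eq_one.mp this
      rwa [pow_two] at this
    have h1 : x * g = c * g * x := by rw [hcdef]; group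
    calc g * x ^ 2 = (c * c) * g * x * x := by rw [hc2, pow_two]; group
      _ = c * (c * g * x) * x := by group
      _ = c * (x * g) * x := by rw [h1]
      _ = (c * x) * g * x := by group
      _ = (x * c) * g * x := by rw [hcZ x]
      _ = x * (c * g * x) := by group
      _ = x * (x * g) := by rw [h1]
      _ = x ^ 2 * g := by rw [pow_two]; group
  · rw [← hDeq]
    exact (Cfsg.Agent.Lib.Helper1.pgroup_frattini hG).1

/-- a nontrivial solvable group has a nontrivial linear character -/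
theorem exists_nontrivial_linear {Q : Type*} [Group Q] [Finite Q] [Group.IsSolvable Q]
    [Nontrivial Q] : ∃ ψ : Q → ℂ, IsCharacter Q ψ ∧ ψ 1 = 1 ∧ ∃ x, ψ x ≠ 1 := by
  classical
  have hlt : commutator Q < ⊤ := Group.IsSolvable.commutator_lt_top_of_nontrivial Q
  have hS2 := sum_degree_sq_normal (G := Q) (commutator Q)
  by_contra hcon
  push Not at hcon
  have hidx : (commutator Q).index ≠ 1 := fun h => hlt.ne (Subgroup.index_eq_one.mp h)
  apply hidx
  rw [← hS2]
  let χ₁ : IrrCharacter Q := ⟨fun _ => 1, isIrrCharacter_one⟩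
  rw [Finset.sum_eq_single χ₁]
  · rw [if_pos (fun _ _ => rfl)]
    have : charDegree (χ₁ : Q → ℂ) = 1 := (degree_one_iff χ₁.2).mpr (fun _ _ => rfl)
    rw [this]; rfl
  · intro χ _ hχ
    rw [if_neg]
    intro hk
    apply hχ
    have h1 := (degree_one_iff χ.2).mpr hk
    have hc := charDegree_cast (IsIrrCharacter.isCharacter χ.2)
    rw [h1] at hc
    have h2 := hcon χ (IsIrrCharacter.isCharacter χ.2) (by rw [← hc]; simp)
    apply Subtype.ext
    funext x
    exact h2 x
  · intro h; exact absurd (Finset.mem_univ _) h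

/-- a nilpotent group with a unique irreducible character of degree divisible by `p` is a
`p`-group -/
theorem isPGroup_of_unique [Group.IsNilpotent G] {p : ℕ} [hp : Fact p.Prime]
    (h : Nat.card {χ : IrrCharacter G // p ∣ charDegree (χ : G → ℂ)} = 1) : IsPGroup p G := by
  classical
  cases nonempty_fintype G
  obtain ⟨⟨χ₀, hχ₀⟩, huniq⟩ := Nat.card_eq_one_iff_exists.mp h
  have huniq' : ∀ χ : IrrCharacter G, p ∣ charDegree (χ : G → ℂ) → χ = χ₀ := fun χ hχ =>
    congrArg Subtype.val (huniq ⟨χ, hχ⟩)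
  obtain ⟨P⟩ : Nonempty (Sylow p G) := inferInstance
  have hcop : Nat.Coprime (Nat.card (P : Subgroup G)) (P : Subgroup G).index :=
    P.card_coprime_index
  haveI hPn : (P : Subgroup G).Normal := Cfsg.Agent.Lib.Helper1.normal_of_hall_of_nilpotent hcop
  obtain ⟨K, hK⟩ := Subgroup.exists_right_complement'_of_coprime hcop
  have hKidx : K.index = Nat.card (P : Subgroup G) := hK.index_eq_card
  have hKcard : Nat.card K = (P : Subgroup G).index := (hK.symm.index_eq_card).symm
  haveI hKn : K.Normal := Cfsg.Agent.Lib.Helper1.normal_of_hall_of_nilpotent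
    (by rw [hKidx, hKcard]; exact hcop.symm)
  obtain ⟨n, hn⟩ := (IsPGroup.iff_card (p := p) (G := (P : Subgroup G))).mp P.isPGroup'
  -- `K` is in the kernel of `χ₀`
  have hker : ∀ x ∈ K, (χ₀ : G → ℂ) x = (χ₀ : G → ℂ) 1 := by
    by_contra hcon
    have hlin : ∀ χ : IrrCharacter G, (∀ x ∈ K, (χ : G → ℂ) x = (χ : G → ℂ) 1) →
        charDegree (χ : G → ℂ) = 1 := by
      intro χ hχ
      have h1 : charDegree (χ : G → ℂ) ∣ p ^ n := by
        rw [← hn, ← hKidx]
        exact degree_dvd_index K χ.2 hχ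
      obtain ⟨k, -, hk⟩ := (Nat.dvd_prime_pow hp.out).mp h1
      rcases Nat.eq_zero_or_pos k with rfl | hk0
      · simpa using hk
      · have := huniq' χ (hk ▸ dvd_pow_self p hk0.ne')
        subst this
        exact absurd hχ hcon
    have hS1 := sum_degree_sq_normal (G := G) K
    have hS2 := sum_degree_sq_normal (G := G) (K ⊔ commutator G)
    have heq : K.index = (K ⊔ commutator G).index := by
      rw [← hS1, ← hS2]
      refine Finset.sum_congr rfl fun χ _ => ?_
      by_cases hχ : ∀ x ∈ K, (χ : G → ℂ) x = (χ : G → ℂ) 1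
      · rw [if_pos hχ, if_pos]
        intro x hx
        have hc := IsIrrCharacter.isCharacter χ.2
        have h1 : K ⊔ commutator G ≤ kerOf hc := by
          apply sup_le
          · intro y hy; exact (mem_kerOf hc y).mpr (hχ y hy)
          · intro y hy
            exact (mem_kerOf hc y).mpr ((degree_one_iff χ.2).mp (hlin χ hχ) y hy)
        exact (mem_kerOf hc x).mp (h1 hx)
      · rw [if_neg hχ, if_neg]
        intro h2
        exact hχ fun x hx => h2 x (Subgroup.mem_sup_left hx)
    have hDK : commutator G ≤ K := by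
      have h1 : K = K ⊔ commutator G := by
        apply Subgroup.eq_of_le_of_card_ge le_sup_left
        have e1 := Subgroup.card_mul_index K
        have e2 := Subgroup.card_mul_index (K ⊔ commutator G)
        rw [← heq] at e2
        have hpos : 0 < K.index := Nat.pos_of_ne_zero Subgroup.index_ne_zero_of_finite
        exact (Nat.eq_of_mul_eq_mul_right hpos (e2.trans e1.symm)).le
      rw [h1]; exact le_sup_right
    have hPab : ∀ a ∈ (P : Subgroup G), ∀ b ∈ (P : Subgroup G), a * b = b * a := by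
      intro a ha b hb
      have h1 : a * b * a⁻¹ * b⁻¹ ∈ (P : Subgroup G) ⊓ K :=
        ⟨Subgroup.mul_mem _ (Subgroup.mul_mem _ (Subgroup.mul_mem _ ha hb)
          (Subgroup.inv_mem _ ha)) (Subgroup.inv_mem _ hb), hDK (comm_mem a b)⟩
      rw [hK.disjoint.eq_bot, Subgroup.mem_bot] at h1
      calc a * b = (a * b * a⁻¹ * b⁻¹) * (b * a) := by group
        _ = b * a := by rw [h1, one_mul]
    have h2 := ito_degree_dvd (P : Subgroup G) hPab χ₀
    exact P.not_dvd_index (hχ₀.trans h2)
  -- hence `K = 1`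
  by_contra hnot
  haveI : Nontrivial (G ⧸ (P : Subgroup G)) := by
    by_contra htriv
    rw [not_nontrivial_iff_subsingleton] at htriv
    apply hnot
    have : (P : Subgroup G) = ⊤ := QuotientGroup.subgroup_eq_top_of_subsingleton _ htriv
    have h3 := P.isPGroup'
    rw [this] at h3
    exact (h3.of_equiv Subgroup.topEquiv)
  obtain ⟨ψ, hψ, hψ1, x, hx⟩ := exists_nontrivial_linear (Q := G ⧸ (P : Subgroup G))
  set lam : G → ℂ := fun g => ψ (QuotientGroup.mk' (P : Subgroup G) g) with hlam
  have hlamc : IsCharacter G lam := IsCharacter.comp_hom (QuotientGroup.mk' (P : Subgroup G)) hψ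
  have hlam1 : lam 1 = 1 := by rw [hlam]; simpa using hψ1
  have hirr := IsIrrCharacter.linear_mul hlamc hlam1 χ₀.2
  have hdeg : charDegree (lam * (χ₀ : G → ℂ)) = charDegree (χ₀ : G → ℂ) := by
    unfold charDegree
    rw [Pi.mul_apply, hlam1, one_mul]
  have heq : (⟨lam * (χ₀ : G → ℂ), hirr⟩ : IrrCharacter G) = χ₀ := huniq' _ (by rw [hdeg]; exact hχ₀)
  have heq' : lam * (χ₀ : G → ℂ) = χ₀ := congrArg Subtype.val heq
  have h0 := irr_one_ne_zero χ₀.2
  have hlamK : ∀ y ∈ K, lam y = 1 := by
    intro y hy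
    have h1 := congrFun heq' y
    rw [Pi.mul_apply, hker y hy] at h1
    exact mul_right_cancel₀ h0 (h1.trans (one_mul _).symm)
  apply hx
  obtain ⟨g, rfl⟩ := QuotientGroup.mk'_surjective _ x
  obtain ⟨⟨a, y⟩, hay⟩ := hK.existsUnique g |>.exists
  have hay' : (a : G) * y = g := hay
  have h5 : QuotientGroup.mk' (P : Subgroup G) g = QuotientGroup.mk' (P : Subgroup G) (y : G) := by
    rw [← hay', map_mul]
    have : QuotientGroup.mk' (P : Subgroup G) (a : G) = 1 :=
      (QuotientGroup.eq_one_iff _).mpr a.2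
    rw [this, one_mul]
  rw [h5]
  exact hlamK y y.2

end Cfsg.Agent.Lib.Helper13.UniqueP
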